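import Cfsg.Agent.H592.KW.Det

/-!
# S4243 (TEAM KW): the family of the blocks `SL_2(q)` in `O(V)` (helper592)

* `em i : OG qM →* OG (QQ k qM qW)` : the action on the `i`-th block;
* `KK (i, s) = em i (Rg s)` : the `SL_2`-blocks;
* `wr_le_fam`, `not_dvd_index_fam` : `O(M_2) wr Sym k × O(W) ≤ fam KK`.
-/

set_option autoImplicit false
set_option linter.unusedSectionVars false

namespace Cfsg.Agent.H592.KW

open Subgroup Matrix
open scoped MatrixGroups

section em

variable {F : Type} [Field F] {k : Type} [Fintype k] [DecidableEq k] {M W : Type} [AddCommGroup M] [Module F M]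
  [AddCommGroup W] [Module F W] {qM : M → F} {qW : W → F}

/-- the action on one block -/
def em (i : k) : OG qM →* OG (QQ k qM qW) where
  toFun T := diag k (Pi.mulSingle i T, 1)
  map_one' := by
    rw [Pi.mulSingle_one]
    exact map_one _
  map_mul' T T' := by
    rw [Pi.mulSingle_mul, ← map_mul, Prod.mk_mul_mk, one_mul]

theorem em_same (i : k) (T : OG qM) (v : (k → M) × W) : ((em i T : OG (QQ k qM qW)) v).1 i = T (v.1 i) := by
  change (Pi.mulSingle i T : k → OG qM) i (v.1 i) = _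
  rw [Pi.mulSingle_eq_same]

theorem em_ne {i j : k} (h : j ≠ i) (T : OG qM) (v : (k → M) × W) : ((em i T : OG (QQ k qM qW)) v).1 j = v.1 j := by
  change (Pi.mulSingle i T : k → OG qM) j (v.1 j) = _
  rw [Pi.mulSingle_eq_of_ne h]
  rfl

theorem em_snd (i : k) (T : OG qM) (v : (k → M) × W) : ((em i T : OG (QQ k qM qW)) v).2 = v.2 := rfl

theorem em_inj (i : k) : Function.Injective (em i : OG qM →* OG (QQ k qM qW)) := by
  intro T T' h
  refine OG.ext fun m => ?_
  have h1 : (em i T : OG (QQ k qM qW)) (Function.const k m, 0) = (em i T' : OG (QQ k qM qW)) (Function.const k m, 0) := by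
    rw [h]
  have h2 := congrFun (congrArg Prod.fst h1) i
  rw [em_same, em_same] at h2
  exact h2

theorem em_comm {i j : k} (h : i ≠ j) (T T' : OG qM) :
    (em i T * em j T' : OG (QQ k qM qW)) = em j T' * em i T := by
  change diag k (Pi.mulSingle i T, 1) * diag k (Pi.mulSingle j T', 1) =
    diag k (Pi.mulSingle j T', 1) * diag k (Pi.mulSingle i T, 1)
  rw [← map_mul, ← map_mul, Prod.mk_mul_mk, Prod.mk_mul_mk,
    (Pi.mulSingle_commute (f := fun _ : k => OG qM) h T T').eq]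

theorem diag_em (T : k → OG qM) (S : OG qW) (i : k) (R : OG qM) :
    (diag k (T, S) * em i R : OG (QQ k qM qW)) = em i (T i * R * (T i)⁻¹) * diag k (T, S) := by
  change diag k (T, S) * diag k (Pi.mulSingle i R, 1) = diag k (Pi.mulSingle i (T i * R * (T i)⁻¹), 1) * diag k (T, S)
  rw [← map_mul, ← map_mul, Prod.mk_mul_mk, Prod.mk_mul_mk, mul_one, one_mul]
  congr 2
  funext j
  rw [Pi.mul_apply, Pi.mul_apply]
  by_cases hj : j = i
  · subst hj
    rw [Pi.mulSingle_eq_same, Pi.mulSingle_eq_same]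
    group
  · rw [Pi.mulSingle_eq_of_ne hj, Pi.mulSingle_eq_of_ne hj, mul_one, one_mul]

theorem perm_em (σ : Equiv.Perm k) (i : k) (R : OG qM) :
    (perm k σ * em i R : OG (QQ k qM qW)) = em (σ i) R * perm k σ := by
  change perm k σ * diag k (Pi.mulSingle i R, 1) = diag k (Pi.mulSingle (σ i) R, 1) * perm k σ
  rw [perm_mul_diag]
  congr 3
  funext j
  by_cases hj : j = σ i
  · subst hj
    rw [Pi.mulSingle_eq_same]
    have : σ⁻¹ (σ i) = i := Equiv.symm_apply_apply σ i
    rw [this, Pi.mulSingle_eq_same]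
  · rw [Pi.mulSingle_eq_of_ne hj, Pi.mulSingle_eq_of_ne]
    intro h
    apply hj
    rw [← h]
    exact (Equiv.apply_symm_apply σ j).symm

theorem cj_diag_map (T : k → OG qM) (S : OG qW) (i : k) (A : Subgroup (OG qM)) :
    cj (diag k (T, S) : OG (QQ k qM qW)) (A.map (em i)) = (cj (T i) A).map (em i) := by
  ext x
  constructor
  · rintro ⟨_, ⟨R, hR, rfl⟩, rfl⟩
    refine ⟨T i * R * (T i)⁻¹, conj_mem_cj hR, ?_⟩
    change em i (T i * R * (T i)⁻¹) = diag k (T, S) * em i R * (diag k (T, S))⁻¹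
    rw [diag_em, mul_inv_cancel_right]
  · rintro ⟨_, ⟨R, hR, rfl⟩, rfl⟩
    refine ⟨em i R, ⟨R, hR, rfl⟩, ?_⟩
    change diag k (T, S) * em i R * (diag k (T, S))⁻¹ = em i (T i * R * (T i)⁻¹)
    rw [diag_em, mul_inv_cancel_right]

theorem cj_perm_map (σ : Equiv.Perm k) (i : k) (A : Subgroup (OG qM)) :
    cj (perm k σ : OG (QQ k qM qW)) (A.map (em i)) = A.map (em (σ i)) := by
  ext x
  constructor
  · rintro ⟨_, ⟨R, hR, rfl⟩, rfl⟩
    refine ⟨R, hR, ?_⟩
    change em (σ i) R = perm k σ * em i R * (perm k σ)⁻¹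
    rw [perm_em, mul_inv_cancel_right]
  · rintro ⟨R, hR, rfl⟩
    refine ⟨em i R, ⟨R, hR, rfl⟩, ?_⟩
    change perm k σ * em i R * (perm k σ)⁻¹ = em (σ i) R
    rw [perm_em, mul_inv_cancel_right]

end em

section KK

variable {F : Type} [Field F] {k : Type} [Fintype k] [DecidableEq k] {W : Type}
  [AddCommGroup W] [Module F W] {qW : W → F}

/-- the `SL_2`-blocks -/
def KK (qW : W → F) (a : k × Bool) : Subgroup (OG (QQ k (dq (F := F)) qW)) := (Rg a.2).map (em a.1)

/-- the parametrisation of the block -/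
def kp (qW : W → F) (a : k × Bool) : SL(2, F) →* OG (QQ k (dq (F := F)) qW) := (em a.1).comp (sd a.2)

theorem kp_inj (a : k × Bool) : Function.Injective (kp qW a) := (em_inj a.1).comp (sd_inj a.2)

theorem mem_KK {a : k × Bool} {x : OG (QQ k (dq (F := F)) qW)} : x ∈ KK qW a ↔ ∃ S, kp qW a S = x := by
  constructor
  · rintro ⟨_, ⟨S, rfl⟩, rfl⟩
    exact ⟨S, rfl⟩
  · rintro ⟨S, rfl⟩
    exact ⟨_, ⟨S, rfl⟩, rfl⟩

theorem kp_mem (a : k × Bool) (S : SL(2, F)) : kp qW a S ∈ KK qW a := mem_KK.2 ⟨S, rfl⟩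

theorem KK_comm {a b : k × Bool} (h : a ≠ b) {x y : OG (QQ k (dq (F := F)) qW)} (hx : x ∈ KK qW a) (hy : y ∈ KK qW b) :
    x * y = y * x := by
  obtain ⟨A, rfl⟩ := mem_KK.1 hx
  obtain ⟨B, rfl⟩ := mem_KK.1 hy
  obtain ⟨i, s⟩ := a
  obtain ⟨j, t⟩ := b
  by_cases hij : i = j
  · subst hij
    change em i (sd s A) * em i (sd t B) = em i (sd t B) * em i (sd s A)
    rw [← map_mul, ← map_mul]
    congr 1
    cases s <;> cases t
    · exact absurd rfl h
    · exact (sd_comm B A).symm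
    · exact sd_comm A B
    · exact absurd rfl h
  · exact em_comm hij _ _

theorem KK_inj : Function.Injective (KK (k := k) (F := F) qW) := by
  intro a b hab
  by_contra hne
  obtain ⟨A, B, hAB⟩ := exists_noncomm (F := F)
  apply hAB
  apply kp_inj (qW := qW) a
  rw [map_mul, map_mul]
  exact KK_comm hne (kp_mem a A) (hab ▸ kp_mem a B)

theorem cj_diag_KK (T : k → OG (dq (F := F))) (S : OG qW) (i : k) {s t : Bool} (h : cj (T i) (Rg s) = Rg t) :
    cj (diag k (T, S)) (KK qW (i, s)) = KK qW (i, t) := by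
  change cj (diag k (T, S)) ((Rg s).map (em i)) = (Rg t).map (em i)
  rw [cj_diag_map, h]

theorem cj_perm_KK (σ : Equiv.Perm k) (i : k) (s : Bool) :
    cj (perm k σ : OG (QQ k (dq (F := F)) qW)) (KK qW (i, s)) = KK qW (σ i, s) := cj_perm_map σ i _

theorem perm_mem_fam (σ : Equiv.Perm k) : (perm k σ : OG (QQ k (dq (F := F)) qW)) ∈ fam (KK qW) :=
  mem_fam_of KK_inj fun a => ⟨(σ a.1, a.2), cj_perm_KK σ a.1 a.2⟩

variable [Fintype F]

theorem diag_mem_fam (T : k → OG (dq (F := F))) (S : OG qW) : diag k (T, S) ∈ fam (KK qW) := by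
  refine mem_fam_of KK_inj fun a => ?_
  obtain ⟨i, s⟩ := a
  have h : T i ∈ fam (Rg (F := F)) := by rw [fam_Rg]; trivial
  obtain ⟨t, ht⟩ := h.1 s
  exact ⟨(i, t), cj_diag_KK T S i ht⟩

theorem wr_le_fam : wr k (⊤ : Subgroup (OG (dq (F := F)))) (⊤ : Subgroup (OG qW)) ≤ fam (KK qW) := by
  rintro _ ⟨T, S, σ, -, -, rfl⟩
  exact mul_mem (diag_mem_fam T S) (perm_mem_fam σ)

theorem KK_trans (i0 : k) (a : k × Bool) : ∃ g ∈ fam (KK (k := k) (F := F) qW), cj g (KK qW a) = KK qW (i0, true) := by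
  obtain ⟨i, s⟩ := a
  have h : cj (perm k (Equiv.swap i i0) : OG (QQ k (dq (F := F)) qW)) (KK qW (i, true)) = KK qW (i0, true) := by
    rw [cj_perm_KK, Equiv.swap_apply_left]
  cases s with
  | true => exact ⟨_, perm_mem_fam _, h⟩
  | false =>
    have h2 := cj_diag_KK (qW := qW) (fun _ : k => (tau : OG (dq (F := F)))) 1 i (s := false) (t := true) (cj_tau false)
    refine ⟨perm k (Equiv.swap i i0) * diag k (fun _ => tau, 1), mul_mem (perm_mem_fam _) (diag_mem_fam _ _), ?_⟩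
    rw [cj_mul, h2, h]

theorem not_dvd_index_fam [Finite W] {p : ℕ} [hp : Fact p.Prime]
    (hv : padicValNat p (Nat.card (OG (QQ k (dq (F := F)) qW))) ≤
      padicValNat p (Nat.card (OG (dq (F := F))) ^ Fintype.card k * Nat.card (OG qW) * (Fintype.card k).factorial)) :
    ¬ p ∣ (fam (KK (k := k) (F := F) qW)).index := by
  intro hd
  have h1 := Subgroup.card_mul_index (fam (KK (k := k) (F := F) qW))
  have h2 : Nat.card (wr k (⊤ : Subgroup (OG (dq (F := F)))) (⊤ : Subgroup (OG qW))) ∣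
      Nat.card (fam (KK (k := k) (F := F) qW)) := Subgroup.card_dvd_of_le wr_le_fam
  rw [card_wr, Subgroup.card_top, Subgroup.card_top] at h2
  have hi : (fam (KK (k := k) (F := F) qW)).index ≠ 0 := Subgroup.index_ne_zero_of_finite
  have hc : Nat.card (fam (KK (k := k) (F := F) qW)) ≠ 0 := Nat.card_pos.ne'
  rw [← h1, padicValNat.mul hc hi] at hv
  have h4 := one_le_padicValNat_of_dvd hi hd
  generalize Nat.card (fam (KK (k := k) (F := F) qW)) = C at *
  generalize Nat.card (OG (dq (F := F))) ^ Fintype.card k * Nat.card (OG qW) * (Fintype.card k).factorial = D at *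
  obtain ⟨m, rfl⟩ := h2
  have hD : D ≠ 0 := left_ne_zero_of_mul hc
  have hm : m ≠ 0 := right_ne_zero_of_mul hc
  rw [padicValNat.mul hD hm] at hv
  omega

end KK

end Cfsg.Agent.H592.KW
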