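import Cfsg.Agent.H592.KW.Nor
import Cfsg.Agent.H838.KW.Two
import Cfsg.Agent.H513.KwTwo

/-!
# S4243 (TEAM KW): the core theorem for the orthogonal groups, `q > 3` (helper592)

* `ha_main` : the condition (ha) of the block principle, via the cover `{(g, A)} → GL_2(F)`;
* `core` : the `2`-elements of an `r'`-subgroup of `O(V)` with `PSub 2` are scalars.
-/

set_option autoImplicit false
set_option linter.unusedSectionVars false

namespace Cfsg.Agent.H592.KW

open Subgroup Matrix Cfsg.Agent.H146.KW Cfsg.Agent.H838.KW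
open scoped MatrixGroups

section ha

variable {F : Type} [Field F] [Fintype F] {k : Type} [Fintype k] [DecidableEq k] {W : Type}
  [AddCommGroup W] [Module F W] {qW : W → F} {r : ℕ} [hr : Fact r.Prime] [CharP F r]

/-- the cover -/
def cov {N : Type} [Group N] (j : N →* OG (QQ k (dq (F := F)) qW)) (i0 : k) : Subgroup (N × GL (Fin 2) F) where
  carrier := {x | ∀ S : SL(2, F), j x.1 * kp qW (i0, true) S = kp qW (i0, true) (cjS x.2 S) * j x.1}
  mul_mem' {x y} hx hy S := by
    change j (x.1 * y.1) * kp qW (i0, true) S = kp qW (i0, true) (cjS (x.2 * y.2) S) * j (x.1 * y.1)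
    rw [map_mul, mul_assoc, hy S, ← mul_assoc, hx (cjS y.2 S), cjS_mul, mul_assoc]
  one_mem' S := by
    change j 1 * kp qW (i0, true) S = kp qW (i0, true) (cjS 1 S) * j 1
    rw [map_one, cjS_one, one_mul, mul_one]
  inv_mem' {x} hx S := by
    change j x.1⁻¹ * kp qW (i0, true) S = kp qW (i0, true) (cjS x.2⁻¹ S) * j x.1⁻¹
    have h := hx (cjS x.2⁻¹ S)
    rw [← cjS_mul, mul_inv_cancel, cjS_one] at h
    rw [map_inv, inv_mul_eq_iff_eq_mul, ← mul_assoc, h, mul_inv_cancel_right]

theorem mem_cov {N : Type} [Group N] {j : N →* OG (QQ k (dq (F := F)) qW)} {i0 : k} {x : N × GL (Fin 2) F} :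
    x ∈ cov j i0 ↔ ∀ S : SL(2, F), j x.1 * kp qW (i0, true) S = kp qW (i0, true) (cjS x.2 S) * j x.1 := Iff.rfl

/-- a matrix commuting with `SL_2(F)` is scalar -/
theorem scalar_of_cjS {A : GL (Fin 2) F} (h : ∀ S : SL(2, F), cjS A S = S) : ∃ c : F, (A : M2 F) = c • 1 := by
  have h1 : ∀ X : M2 F, (A : M2 F) * X = X * (A : M2 F) := by
    let P : Submodule F (M2 F) :=
      { carrier := {X | (A : M2 F) * X = X * (A : M2 F)}
        add_mem' := fun {a b} ha hb => by
          change (A : M2 F) * (a + b) = (a + b) * (A : M2 F)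
          rw [Matrix.mul_add, Matrix.add_mul, ha, hb]
        zero_mem' := by
          change (A : M2 F) * 0 = 0 * (A : M2 F)
          rw [Matrix.mul_zero, Matrix.zero_mul]
        smul_mem' := fun c a ha => by
          change (A : M2 F) * (c • a) = (c • a) * (A : M2 F)
          rw [Matrix.mul_smul, Matrix.smul_mul, ha] }
    intro X
    refine sl_span (P := P) (fun S => ?_) X
    change (A : M2 F) * (S : M2 F) = (S : M2 F) * (A : M2 F)
    have h2 := congrArg (fun S : SL(2, F) => (S : M2 F)) (h S)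
    change (A : M2 F) * (S : M2 F) * ((A⁻¹ : GL (Fin 2) F) : M2 F) = (S : M2 F) at h2
    have h3 : ((A⁻¹ : GL (Fin 2) F) : M2 F) * (A : M2 F) = 1 := by rw [← Units.val_mul, inv_mul_cancel, Units.val_one]
    conv_rhs => rw [← h2]
    rw [Matrix.mul_assoc, h3, Matrix.mul_one]
  have e1 := h1 !![0, 1; 0, 0]
  have e2 := h1 !![0, 0; 1, 0]
  have a1 := congrFun (congrFun e1 0) 0
  have a2 := congrFun (congrFun e1 0) 1
  have a3 := congrFun (congrFun e2 0) 0
  simp [Matrix.mul_apply, Fin.sum_univ_two] at a1 a2 a3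
  replace a1 := a1.symm
  refine ⟨(A : M2 F) 0 0, ?_⟩
  ext i j
  fin_cases i <;> fin_cases j <;> simp [a1, a2, a3]

theorem cjS_of_scalar {A : GL (Fin 2) F} {c : F} (h : (A : M2 F) = c • 1) (S : SL(2, F)) : cjS A S = S := by
  apply Subtype.ext
  rw [cjS_coe]
  have h3 : (A : M2 F) * ((A⁻¹ : GL (Fin 2) F) : M2 F) = 1 := by rw [← Units.val_mul, mul_inv_cancel, Units.val_one]
  have h4 : (A : M2 F) * (S : M2 F) = (S : M2 F) * (A : M2 F) := by
    rw [h, Matrix.smul_mul, Matrix.mul_smul, Matrix.one_mul, Matrix.mul_one]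
  rw [h4, Matrix.mul_assoc, h3, Matrix.mul_one]

theorem exists_inv_mod {m n : ℕ} (hm : 0 < m) (h : Nat.Coprime m n) : ∃ t b : ℕ, m * t = n * b + 1 := by
  rcases Nat.lt_trichotomy n 1 with h0 | h0 | h0
  · obtain rfl : n = 0 := by omega
    rw [Nat.coprime_zero_right] at h
    exact ⟨1, 0, by simp [h]⟩
  · subst h0
    refine ⟨1, m - 1, ?_⟩
    omega
  · obtain ⟨t, -, ht⟩ := Nat.exists_mul_mod_eq_one_of_coprime h h0
    refine ⟨t, m * t / n, ?_⟩
    have := Nat.div_add_mod (m * t) n
    omega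

/-- **Condition (ha).** -/
theorem ha_main (h2 : (2 : F) ≠ 0) (hr2 : r ≠ 2) (hW : qW 0 = 0) (i0 : k)
    (hTw : ∀ Z : Subgroup (GL (Fin 2) F), (∀ A : GL (Fin 2) F, (A : M2 F).det = 1 → A ∈ Z) → TwoGp r (Fintype.card F) Z)
    (N : Type) [Group N] [Finite N] (j : N →* OG (QQ k (dq (F := F)) qW))
    (hfix : ∀ g a, cj (j g) (KK qW a) = KK qW a) (hle : KK qW (i0, true) ≤ j.range) (H' : Subgroup N) (hH : PSub 2 H')
    (hrH : ¬ r ∣ Nat.card H') (x : N) (hx : x ∈ H') (hx2 : ∃ n : ℕ, x ^ 2 ^ n = 1) :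
    ∀ y ∈ KK qW (i0, true), j x * y = y * j x := by
  let pr : cov j i0 →* N := (MonoidHom.fst N (GL (Fin 2) F)).comp (cov j i0).subtype
  let f : cov j i0 →* GL (Fin 2) F := (MonoidHom.snd N (GL (Fin 2) F)).comp (cov j i0).subtype
  have hpr : Function.Surjective pr := by
    intro g
    obtain ⟨A, hA⟩ := exists_cjS h2 hW (hfix g (i0, true))
    exact ⟨⟨(g, A), hA⟩, rfl⟩
  have hZ : TwoGp r (Fintype.card F) f.range := by
    apply hTw
    intro A hA
    let S0 : SL(2, F) := ⟨(A : M2 F), hA⟩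
    have hS0 : S0.toGL = A := Units.ext rfl
    obtain ⟨n, hn⟩ := hle (kp_mem (qW := qW) (i0, true) S0)
    refine ⟨⟨(n, A), ?_⟩, rfl⟩
    intro S
    change j n * kp qW (i0, true) S = kp qW (i0, true) (cjS A S) * j n
    rw [hn, ← hS0, cjS_toGL, ← map_mul, ← map_mul, inv_mul_cancel_right]
  let Ht : Subgroup (cov j i0) := H'.comap pr
  have hHt : PSub 2 Ht := hH.comap hpr
  have hHtr : ¬ r ∣ Nat.card Ht := by
    intro hd
    obtain ⟨y, hy⟩ := exists_prime_orderOf_dvd_card' (G := Ht) r hd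
    have hyr : (y : cov j i0) ^ r = 1 := by
      have := pow_orderOf_eq_one y
      rw [hy] at this
      exact congrArg Subtype.val this
    have h3 : pr y = 1 := by
      have h4 : orderOf (pr y) ∣ r := by
        apply orderOf_dvd_of_pow_eq_one
        rw [← map_pow, hyr, map_one]
      rcases (Nat.dvd_prime hr.1).1 h4 with h5 | h5
      · exact orderOf_eq_one_iff.1 h5
      · exfalso
        apply hrH
        rw [← h5]
        have h6 := orderOf_dvd_natCard (⟨pr y, y.2⟩ : H')
        rw [← Subgroup.orderOf_coe] at h6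
        exact h6
    have h7 : ∃ c : F, ((f y : GL (Fin 2) F) : M2 F) = c • 1 := by
      apply scalar_of_cjS
      intro S
      have h8 := (y : cov j i0).2 S
      change j (pr y) * kp qW (i0, true) S = kp qW (i0, true) (cjS (f y) S) * j (pr y) at h8
      rw [h3, map_one, one_mul, mul_one] at h8
      exact (kp_inj _ h8).symm
    obtain ⟨c, hc⟩ := h7
    have h9 : (f y) ^ r = 1 := by rw [← map_pow, hyr, map_one]
    have h10 : c ^ r = 1 := by
      have h11 := congrArg (fun A : GL (Fin 2) F => (A : M2 F) 0 0) h9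
      change ((f y ^ r : GL (Fin 2) F) : M2 F) 0 0 = ((1 : GL (Fin 2) F) : M2 F) 0 0 at h11
      rw [Units.val_pow_eq_pow_val, hc, smul_pow, one_pow, Units.val_one] at h11
      simpa using h11
    have h12 : c = 1 := by
      have h13 : frobenius F r c = frobenius F r 1 := by
        rw [frobenius_def, frobenius_def, h10, one_pow]
      exact frobenius_inj F r h13
    have h14 : f y = 1 := Units.ext (by rw [hc, h12, one_smul]; rfl)
    have h15 : (y : cov j i0) = 1 := Subtype.ext (Prod.ext h3 h14)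
    have h16 : y = 1 := Subtype.ext h15
    rw [h16, orderOf_one] at hy
    exact hr.1.one_lt.ne hy
  let X : Subgroup f.range := Ht.map f.rangeRestrict
  have hX : PSub 2 X := hHt.map f.rangeRestrict_surjective
  have hXr : ¬ r ∣ Nat.card X := fun hd => hHtr (hd.trans (Subgroup.card_map_dvd _ _))
  -- lift `x` to a `2`-element
  obtain ⟨n, hn⟩ := hx2
  obtain ⟨y, hy⟩ := hpr x
  obtain ⟨a, m, hm, ham⟩ : ∃ a m : ℕ, ¬ 2 ∣ m ∧ orderOf y = 2 ^ a * m :=
    Nat.exists_eq_pow_mul_and_not_dvd (orderOf_pos y).ne' 2 (by norm_num)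
  have hcop : Nat.Coprime m (2 ^ n) := by
    apply Nat.Coprime.pow_right
    rw [Nat.coprime_comm]
    exact (Nat.Prime.coprime_iff_not_dvd Nat.prime_two).2 hm
  obtain ⟨t, ht⟩ := exists_inv_mod (Nat.pos_of_ne_zero fun h => hm (by rw [h]; exact dvd_zero 2)) hcop
  have hy1 : pr (y ^ (m * t)) = x := by
    rw [map_pow, hy]
    obtain ⟨b, hb⟩ := ht
    rw [hb, pow_add, pow_one, pow_mul, hn, one_pow, one_mul]
  have hy2 : (y ^ (m * t)) ^ 2 ^ a = 1 := by
    rw [← pow_mul, mul_comm (m * t), ← mul_assoc, ← ham, pow_mul, pow_orderOf_eq_one, one_pow]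
  have hyX : f.rangeRestrict (y ^ (m * t)) ∈ X := ⟨_, (by
    change pr (y ^ (m * t)) ∈ H'
    rw [hy1]; exact hx), rfl⟩
  obtain ⟨c, hc⟩ := hZ.scalar hr2 hX hXr hyX ⟨a, by rw [← map_pow, hy2, map_one]⟩
  have hc' : ((f (y ^ (m * t)) : GL (Fin 2) F) : M2 F) = c • 1 := hc
  intro z hz
  obtain ⟨S, rfl⟩ := mem_KK.1 hz
  have h5 := (y ^ (m * t)).2 S
  change j (pr (y ^ (m * t))) * kp qW (i0, true) S = kp qW (i0, true) (cjS (f (y ^ (m * t))) S) * j (pr (y ^ (m * t))) at h5
  rwa [hy1, cjS_of_scalar hc'] at h5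

end ha

section scal

variable {F : Type*} [Field F] {V : Type*} [AddCommGroup V] [Module F V]

/-- the scalar isometries -/
def scal (q : V → F) : Subgroup (OG q) where
  carrier := {g | ∃ c : F, ∀ v, g v = c • v}
  mul_mem' := by
    rintro a b ⟨c, hc⟩ ⟨d, hd⟩
    exact ⟨c * d, fun v => by rw [OG.mul_apply, hd, hc, smul_smul]⟩
  one_mem' := ⟨1, fun v => (one_smul F v).symm⟩
  inv_mem' := by
    rintro a ⟨c, hc⟩
    refine ⟨c⁻¹, fun v => ?_⟩
    apply OG.inj a
    rw [OG.apply_inv_self, hc, smul_smul]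
    by_cases h : c = 0
    · have h1 : v = 0 := by
        rw [← OG.apply_inv_self a v, hc, h, zero_smul]
      rw [h1, smul_zero]
    · rw [mul_inv_cancel₀ h, one_smul]

theorem mem_scal {q : V → F} {g : OG q} : g ∈ scal q ↔ ∃ c : F, ∀ v, g v = c • v := Iff.rfl

instance (q : V → F) : (scal q).Normal where
  conj_mem := by
    rintro a ⟨c, hc⟩ g
    refine ⟨c, fun v => ?_⟩
    rw [OG.mul_apply, OG.mul_apply, hc, map_smul, OG.apply_inv_self]

end scal

section core

variable {F : Type} [Field F] [Fintype F] {k : Type} [Fintype k] [DecidableEq k] {W : Type}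
  [AddCommGroup W] [Module F W] {qW : W → F} {BW : W → W → F} {r : ℕ} [hr : Fact r.Prime] [CharP F r]

theorem twoGp_main (hq : 3 < Fintype.card F) (hr2 : r ≠ 2) (Z : Subgroup (GL (Fin 2) F))
    (hZ : ∀ A : GL (Fin 2) F, (A : M2 F).det = 1 → A ∈ Z) : TwoGp r (Fintype.card F) Z :=
  Cfsg.Agent.H513.KwTwo.twoGp_of_sl hr2 hq fun x => hZ _ x.2

/-- **Condition (hb).** -/
theorem hb_main (hq : 3 < Fintype.card F) (hr2 : r ≠ 2) (a : k × Bool) : r ∣ Nat.card (Sylow 2 (KK (F := F) qW a)) := by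
  have h1 := (twoGp_main (F := F) hq hr2 ⊤ fun _ _ => mem_top _).dvd_card_sylow hr2
  have e1 : SL(2, F) ≃* KK (F := F) qW a :=
    (MonoidHom.ofInjective (kp_inj (qW := qW) a)).trans (MulEquiv.subgroupCongr (by
      ext x
      rw [mem_KK]; rfl))
  have e2 : SL(2, F) ≃* slPart (⊤ : Subgroup (GL (Fin 2) F)) := by
    refine MulEquiv.ofBijective ((SpecialLinearGroup.toGL (n := Fin 2) (R := F)).codRestrict (slPart ⊤) ?_) ?_
    · intro a
      refine ⟨mem_top _, ?_⟩
      change GeneralLinearGroup.det (SpecialLinearGroup.toGL a) = 1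
      apply Units.ext
      exact a.det_coe
    · constructor
      · intro a b h
        have h2 := congrArg (fun x : slPart (⊤ : Subgroup (GL (Fin 2) F)) => ((x : GL (Fin 2) F) : M2 F)) h
        exact Subtype.ext h2
      · rintro ⟨A, hA⟩
        exact ⟨⟨(A : M2 F), (mem_slPart.1 hA).2⟩, Subtype.ext (Units.ext rfl)⟩
  rwa [← card_sylow_congr (e2.symm.trans e1)]

/-- **The core theorem.** -/
theorem core [Finite W] (hq : 3 < Fintype.card F) (hr2 : r ≠ 2) (hW : QB qW BW)
    (hv : padicValNat 2 (Nat.card (OG (QQ k (dq (F := F)) qW))) ≤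
      padicValNat 2 (Nat.card (OG (dq (F := F))) ^ Fintype.card k * Nat.card (OG qW) * (Fintype.card k).factorial))
    (i0 : k) {H : Subgroup (OG (QQ k (dq (F := F)) qW))} (hH : PSub 2 H) (hrH : ¬ r ∣ Nat.card H)
    {x : OG (QQ k (dq (F := F)) qW)} (hx : x ∈ H) (hx2 : ∃ n : ℕ, x ^ 2 ^ n = 1) : ∃ c : F, ∀ v, x v = c • v := by
  have h2 : (2 : F) ≠ 0 := two_ne_zero_of_char (r := r) hr2
  have hB := QB.QQ (k := k) (qb_dq (F := F)) hW
  let w : (k → M2 F) × W := inc F k W i0 !![1, 0; 0, 0]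
  let v0 : (k → M2 F) × W := inc F k W i0 !![0, 0; 0, 1]
  have hBinc : ∀ (u : (k → M2 F) × W) (X : M2 F), BB k dB BW u (inc F k W i0 X) = dB (u.1 i0) X := by
    intro u X
    change ∑ i, dB (u.1 i) ((inc F k W i0 X).1 i) + BW u.2 0 = _
    rw [hW.zero_right, add_zero, Finset.sum_eq_single i0, inc_fst_same]
    · intro j _ hj
      rw [inc_fst_ne hj, qb_dq.zero_right]
    · intro h
      exact absurd (Finset.mem_univ i0) h
  have hw : QQ k dq qW w = 0 := by
    rw [QQ_inc hW.zero]
    simp [dq]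
  have hvw : BB k dB BW v0 w = 1 := by
    rw [hBinc, inc_fst_same]
    simp [dB]
  refine mem_of_family (p := 2) hH hrH (KK qW) KK_inj (fun a b hab x hx y hy => KK_comm hab hx hy)
    (not_dvd_index_fam hv) (i0, true) (KK_trans i0) ?_ (hb_main hq hr2 _) (isPGroup_sgA hB hw r) ?_
    (Z := scal (QQ k dq qW)) ?_ hx hx2
  · intro N _ _ j _ hfix hle H' hH' hrH' x hx hx2
    exact ha_main h2 hr2 hW.zero i0 (twoGp_main hq hr2) N j hfix hle H' hH' hrH' x hx hx2
  · intro s _ hs x hx
    obtain ⟨c, hc⟩ := exists_scalar h2 (i := i0) fun t y hy => hs (i0, t) y hy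
    exact conj_mem_sgA hB hw s (hc _) hx
  · intro s _ hs hA
    have hc : ∀ i : k, ∃ c : F, ∀ X, s (inc F k W i X) = c • inc F k W i X :=
      fun i => exists_scalar h2 fun t y hy => hs (i, t) y hy
    choose c hc using hc
    have hc1 : c i0 * c i0 = 1 := by
      have h3 := OG.iso s (inc F k W i0 1)
      rw [hc, hB.smul, QQ_inc hW.zero, dq_eq, Matrix.det_one, mul_one, sq] at h3
      exact h3
    have hcomm : ∀ u : (k → M2 F) × W, u.1 i0 = 0 → ∃ d : F, c i0 • s u - u = d • w := by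
      intro u hu
      have huw : BB k dB BW u w = 0 := by
        rw [hBinc, hu, qb_dq.zero_left]
      exact comm_sg hB hw u huw (hc i0 _) (hA _ (sg_mem hB hw u huw)) hvw
    have hci : ∀ i, c i = c i0 := by
      intro i
      by_cases hi : i = i0
      · rw [hi]
      · have h3 : (inc F k W i 1).1 i0 = 0 := inc_fst_ne (fun h => hi h.symm) _
        obtain ⟨d, hd⟩ := hcomm _ h3
        have h4 := congrFun (congrArg Prod.fst hd) i
        rw [hc] at h4
        change c i0 • c i • (inc F k W i 1).1 i - (inc F k W i 1).1 i = d • w.1 i at h4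
        rw [inc_fst_same, show w.1 i = 0 from inc_fst_ne hi _, smul_zero, smul_smul] at h4
        have h5 := congrFun (congrFun h4 0) 0
        simp only [Matrix.sub_apply, Matrix.smul_apply, Matrix.one_apply_eq, smul_eq_mul, mul_one,
          Matrix.zero_apply] at h5
        have h6 : c i0 * c i = c i0 * c i0 := by rw [hc1]; linear_combination h5
        have h7 : c i0 ≠ 0 := by
          intro h; rw [h, zero_mul] at hc1; exact zero_ne_one hc1
        exact mul_left_cancel₀ h7 h6
    have hrest : ∀ a : W, s (0, a) = c i0 • ((0, a) : (k → M2 F) × W) := by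
      intro a
      obtain ⟨d, hd⟩ := hcomm (0, a) rfl
      have hz : s * kp qW (i0, true) (-1) = kp qW (i0, true) (-1) * s := hs (i0, true) _ (kp_mem _ _)
      have h3 : (s ((0, a) : (k → M2 F) × W)).1 i0 = 0 := g_rest h2 hz rfl
      have h4 := congrFun (congrArg Prod.fst hd) i0
      change c i0 • (s ((0, a) : (k → M2 F) × W)).1 i0 - 0 = d • w.1 i0 at h4
      rw [h3, smul_zero, sub_zero, show w.1 i0 = !![1, 0; 0, 0] from inc_fst_same _ _] at h4
      have h5 := congrFun (congrFun h4 0) 0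
      simp at h5
      rw [← h5, zero_smul, sub_eq_zero] at hd
      rw [← hd, smul_smul, hc1, one_smul, hd]
    refine ⟨c i0, fun v => ?_⟩
    have hv : v = ∑ i, inc F k W i (v.1 i) + (0, v.2) := by
      refine Prod.ext ?_ ?_
      · rw [Prod.fst_add, Prod.fst_sum]
        funext j
        rw [Pi.add_apply, Finset.sum_apply, Finset.sum_eq_single j, inc_fst_same]
        · exact (add_zero _).symm
        · intro i _ hi
          exact inc_fst_ne (fun h => hi h.symm) _
        · intro h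
          exact absurd (Finset.mem_univ j) h
      · rw [Prod.snd_add, Prod.snd_sum]
        have h3 : ∑ i, (inc F k W i (v.1 i)).2 = 0 := Finset.sum_eq_zero fun i _ => rfl
        rw [h3, zero_add]
    have h3 : s v = ∑ i, s (inc F k W i (v.1 i)) + s (0, v.2) := by
      conv_lhs => rw [hv]
      rw [map_add, map_sum]
    rw [h3, hrest]
    conv_rhs => rw [hv]
    rw [smul_add, Finset.smul_sum]
    congr 1
    exact Finset.sum_congr rfl fun i _ => by rw [hc, hci]

end core

end Cfsg.Agent.H592.KW
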