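import Cfsg.Agent.H592.KW.Core
import Cfsg.Agent.LieClassical.OmegaReindex
import Cfsg.Agent.LieClassical.OmegaCenter

/-!
# S4243 (TEAM KW): the three families in the model (helper592)
-/

set_option autoImplicit false
set_option linter.unusedSectionVars false

namespace Cfsg.Agent.H592.KW

open Subgroup Matrix Cfsg.Agent.H146.KW Cfsg.Agent.H838.KW QuadraticMap
open Cfsg.Agent.LieClassical.OmegaReindex Cfsg.Agent.LieClassical.OmegaCenter

section qb

variable {F : Type*} [Field F] {V : Type*} [AddCommGroup V] [Module F V]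

theorem qb_of (Q : QuadraticForm F V) : QB (⇑Q) (polar Q) where
  polar x y := by rw [QuadraticMap.polar]; ring
  smul c x := by rw [QuadraticMap.map_smul, smul_eq_mul, _root_.sq]
  add_left x y z := QuadraticMap.polar_add_left Q x y z
  smul_left c x y := by rw [QuadraticMap.polar_smul_left, smul_eq_mul]
  symm x y := QuadraticMap.polar_comm _ x y

end qb

section emb

variable (F : Type) [Field F] (j t : ℕ)

/-- the hyperbolic part -/
def e0 : (Fin (j + j + t) ⊕ Fin (j + j + t) → F) ≃ₗ[F] (Fin j → M2 F) × (Fin t ⊕ Fin t → F) where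
  toFun v := (fun i => !![v (.inl (Fin.castAdd t (Fin.castAdd j i))), -v (.inl (Fin.castAdd t (Fin.natAdd j i)));
      v (.inr (Fin.castAdd t (Fin.natAdd j i))), v (.inr (Fin.castAdd t (Fin.castAdd j i)))],
    Sum.elim (fun a => v (.inl (Fin.natAdd (j + j) a))) (fun a => v (.inr (Fin.natAdd (j + j) a))))
  invFun x := Sum.elim
    (Fin.addCases (Fin.addCases (fun i => x.1 i 0 0) (fun i => -x.1 i 0 1)) (fun a => x.2 (.inl a)))
    (Fin.addCases (Fin.addCases (fun i => x.1 i 1 1) (fun i => x.1 i 1 0)) (fun a => x.2 (.inr a)))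
  map_add' u v := by
    refine Prod.ext (funext fun i => ?_) (funext fun s => ?_)
    · ext a b
      fin_cases a <;> fin_cases b <;> simp <;> ring
    · cases s <;> rfl
  map_smul' c v := by
    refine Prod.ext (funext fun i => ?_) (funext fun s => ?_)
    · ext a b
      fin_cases a <;> fin_cases b <;> simp
    · cases s <;> rfl
  left_inv v := by
    funext s
    rcases s with s | s
    · refine Fin.addCases (fun s => ?_) (fun s => ?_) s
      · refine Fin.addCases (fun s => ?_) (fun s => ?_) s <;> simp [-Fin.natAdd_eq_addNat]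
      · simp
    · refine Fin.addCases (fun s => ?_) (fun s => ?_) s
      · refine Fin.addCases (fun s => ?_) (fun s => ?_) s <;> simp [-Fin.natAdd_eq_addNat]
      · simp
  right_inv x := by
    refine Prod.ext (funext fun i => ?_) (funext fun s => ?_)
    · ext a b
      fin_cases a <;> fin_cases b <;> simp [-Fin.natAdd_eq_addNat]
    · cases s <;> simp

theorem e0_form (v : Fin (j + j + t) ⊕ Fin (j + j + t) → F) :
    Cfsg.quadFormPlus (j + j + t) F v = QQ (Fin j) dq (Cfsg.quadFormPlus t F) (e0 F j t v) := by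
  rw [Cfsg.quadFormPlus, Fin.sum_univ_add, Fin.sum_univ_add]
  change _ = ∑ i : Fin j, dq !![v (.inl (Fin.castAdd t (Fin.castAdd j i))), -v (.inl (Fin.castAdd t (Fin.natAdd j i)));
      v (.inr (Fin.castAdd t (Fin.natAdd j i))), v (.inr (Fin.castAdd t (Fin.castAdd j i)))] +
    ∑ a : Fin t, v (.inl (Fin.natAdd (j + j) a)) * v (.inr (Fin.natAdd (j + j) a))
  congr 1
  rw [← Finset.sum_add_distrib]
  refine Finset.sum_congr rfl fun i _ => ?_
  simp [dq]

/-- the odd dimensional part -/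
def e1 : (Unit ⊕ (Fin (j + j + t) ⊕ Fin (j + j + t)) → F) ≃ₗ[F] (Fin j → M2 F) × (Unit ⊕ (Fin t ⊕ Fin t) → F) where
  toFun v := ((e0 F j t (v ∘ .inr)).1, Sum.elim (v ∘ .inl) (e0 F j t (v ∘ .inr)).2)
  invFun x := Sum.elim (x.2 ∘ .inl) ((e0 F j t).symm (x.1, x.2 ∘ .inr))
  map_add' u v := by
    have h : e0 F j t ((u + v) ∘ .inr) = e0 F j t (u ∘ .inr) + e0 F j t (v ∘ .inr) := map_add (e0 F j t) _ _
    refine Prod.ext ?_ (funext fun s => ?_)
    · have h1 := congrArg Prod.fst h
      exact h1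
    · cases s with
      | inl s => rfl
      | inr s => exact congrFun (congrArg Prod.snd h) s
  map_smul' c v := by
    have h : e0 F j t ((c • v) ∘ .inr) = c • e0 F j t (v ∘ .inr) := map_smul (e0 F j t) _ _
    refine Prod.ext ?_ (funext fun s => ?_)
    · have h1 := congrArg Prod.fst h
      exact h1
    · cases s with
      | inl s => rfl
      | inr s => exact congrFun (congrArg Prod.snd h) s
  left_inv v := by
    funext s
    cases s with
    | inl s => rfl
    | inr s => exact congrFun ((e0 F j t).symm_apply_apply (v ∘ .inr)) s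
  right_inv x := by
    have h : e0 F j t ((e0 F j t).symm (x.1, x.2 ∘ .inr)) = (x.1, x.2 ∘ .inr) := (e0 F j t).apply_symm_apply _
    refine Prod.ext ?_ (funext fun s => ?_)
    · have h1 := congrArg Prod.fst h
      exact h1
    · cases s with
      | inl s => rfl
      | inr s => exact congrFun (congrArg Prod.snd h) s

theorem e1_form (v : Unit ⊕ (Fin (j + j + t) ⊕ Fin (j + j + t)) → F) :
    Cfsg.quadFormOdd (j + j + t) F v = QQ (Fin j) dq (Cfsg.quadFormOdd t F) (e1 F j t v) := by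
  have h := e0_form F j t (v ∘ .inr)
  change v (.inl ()) ^ 2 + Cfsg.quadFormPlus (j + j + t) F (v ∘ .inr) =
    ∑ i, dq ((e0 F j t (v ∘ .inr)).1 i) + (v (.inl ()) ^ 2 + Cfsg.quadFormPlus t F (e0 F j t (v ∘ .inr)).2)
  rw [h, QQ]
  ring

/-- the minus type part -/
def e2 : ((Fin (j + j + t) ⊕ Fin (j + j + t)) ⊕ Fin 2 → F) ≃ₗ[F] (Fin j → M2 F) × ((Fin t ⊕ Fin t) ⊕ Fin 2 → F) where
  toFun v := ((e0 F j t (v ∘ .inl)).1, Sum.elim (e0 F j t (v ∘ .inl)).2 (v ∘ .inr))
  invFun x := Sum.elim ((e0 F j t).symm (x.1, x.2 ∘ .inl)) (x.2 ∘ .inr)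
  map_add' u v := by
    have h : e0 F j t ((u + v) ∘ .inl) = e0 F j t (u ∘ .inl) + e0 F j t (v ∘ .inl) := map_add (e0 F j t) _ _
    refine Prod.ext ?_ (funext fun s => ?_)
    · have h1 := congrArg Prod.fst h
      exact h1
    · cases s with
      | inr s => rfl
      | inl s => exact congrFun (congrArg Prod.snd h) s
  map_smul' c v := by
    have h : e0 F j t ((c • v) ∘ .inl) = c • e0 F j t (v ∘ .inl) := map_smul (e0 F j t) _ _
    refine Prod.ext ?_ (funext fun s => ?_)
    · have h1 := congrArg Prod.fst h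
      exact h1
    · cases s with
      | inr s => rfl
      | inl s => exact congrFun (congrArg Prod.snd h) s
  left_inv v := by
    funext s
    cases s with
    | inr s => rfl
    | inl s => exact congrFun ((e0 F j t).symm_apply_apply (v ∘ .inl)) s
  right_inv x := by
    have h : e0 F j t ((e0 F j t).symm (x.1, x.2 ∘ .inl)) = (x.1, x.2 ∘ .inl) := (e0 F j t).apply_symm_apply _
    refine Prod.ext ?_ (funext fun s => ?_)
    · have h1 := congrArg Prod.fst h
      exact h1
    · cases s with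
      | inr s => rfl
      | inl s => exact congrFun (congrArg Prod.snd h) s

theorem e2_form (a b : F) (v : (Fin (j + j + t) ⊕ Fin (j + j + t)) ⊕ Fin 2 → F) :
    Cfsg.quadFormMinus (j + j + t) F a b v = QQ (Fin j) dq (Cfsg.quadFormMinus t F a b) (e2 F j t v) := by
  have h := e0_form F j t (v ∘ .inl)
  change Cfsg.quadFormPlus (j + j + t) F (v ∘ .inl) +
      (v (.inr 0) ^ 2 + a * v (.inr 0) * v (.inr 1) + b * v (.inr 1) ^ 2) =
    ∑ i, dq ((e0 F j t (v ∘ .inl)).1 i) + (Cfsg.quadFormPlus t F (e0 F j t (v ∘ .inl)).2 +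
      (v (.inr 0) ^ 2 + a * v (.inr 0) * v (.inr 1) + b * v (.inr 1) ^ 2))
  rw [h, QQ]
  ring

end emb

section main

theorem not_dvd_center {ι : Type} [Fintype ι] [DecidableEq ι] {F : Type} [Field F] [Finite F]
    (Q : QuadraticForm F (ι → F)) (hQ : (polarBilin Q).Nondegenerate)
    (hn : 3 ≤ Fintype.card ι) (hs : ∃ u : ι → F, u ≠ 0 ∧ Q u = 0) {r : ℕ} [hr : Fact r.Prime] (hr2 : r ≠ 2) :
    ¬ r ∣ Nat.card (Subgroup.center (Cfsg.Omega F ⇑Q)) := by
  intro h
  obtain ⟨z, hz⟩ := exists_prime_orderOf_dvd_card' (G := Subgroup.center (Cfsg.Omega F ⇑Q)) r h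
  have h1 := (mem_center_omega_iff Q hQ hn hs (z : Cfsg.Omega F ⇑Q)).1 z.2
  have h2 : (z : Cfsg.Omega F ⇑Q) ^ 2 = 1 := by
    apply omega_ext
    have h3 : omegaMat ((z : Cfsg.Omega F ⇑Q) ^ 2) = omegaMat (z : Cfsg.Omega F ⇑Q) * omegaMat (z : Cfsg.Omega F ⇑Q) := by
      rw [pow_two]; rfl
    rw [h3]
    rcases h1 with h1 | h1
    · rw [h1]; exact mul_one _
    · rw [h1, neg_mul_neg]; exact mul_one _
  have h3 : orderOf (z : Cfsg.Omega F ⇑Q) = r := by rw [Subgroup.orderOf_coe]; exact hz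
  have h4 := orderOf_dvd_of_pow_eq_one h2
  rw [h3] at h4
  exact hr2 ((Nat.prime_dvd_prime_iff_eq hr.1 Nat.prime_two).1 h4)

/-- the general form -/
theorem noP_main {ι : Type} [Fintype ι] [DecidableEq ι] {F : Type} [Field F] [Fintype F] {r : ℕ} [hr : Fact r.Prime]
    [CharP F r] (hr2 : r ≠ 2) (hq : 3 < Fintype.card F) {Q : (ι → F) → F} (Q' : QuadraticForm F (ι → F)) (hQQ : ⇑Q' = Q)
    (hQ : (polarBilin Q').Nondegenerate) (hn : 3 ≤ Fintype.card ι) (hs : ∃ u : ι → F, u ≠ 0 ∧ Q' u = 0)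
    {W : Type} [AddCommGroup W] [Module F W] [Finite W] {qW : W → F} {BW : W → W → F} (hW : QB qW BW) {j : ℕ}
    (hj : 0 < j) (e : (ι → F) ≃ₗ[F] (Fin j → M2 F) × W) (he : ∀ v, Q v = QQ (Fin j) dq qW (e v))
    (hv : padicValNat 2 (Nat.card (Cfsg.isometryGroup F Q)) ≤ padicValNat 2
      ((2 * (Fintype.card F * (Fintype.card F ^ 2 - 1)) ^ 2) ^ j * Nat.card (OG qW) * j.factorial)) :
    NoP 2 r (Cfsg.POmega F Q) := by
  refine noP_of_OG e he (by rw [← hQQ]; exact not_dvd_center Q' hQ hn hs hr2) ?_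
  intro H hH hrH x hx hx2
  refine core hq hr2 hW ?_ ⟨0, hj⟩ hH hrH hx hx2
  rw [card_OG e he, Fintype.card_fin, card_OG_dq]
  exact hv

end main

end Cfsg.Agent.H592.KW
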