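import Cfsg.Agent.H838.KW.Cent

/-!
# S4243 (TEAM KW): the block principle for a family of subgroups (helper592)

* `fam K` : the stabiliser of the family `K : ι → Subgroup G` under conjugation;
* `mem_of_family` : the block principle for `L = fam K`, one block `a0` is enough.
-/

set_option autoImplicit false
set_option linter.unusedSectionVars false

namespace Cfsg.Agent.H592.KW

open Subgroup Cfsg.Agent.H146.KW Cfsg.Agent.H838.KW

universe u v

section

variable {G : Type u} [Group G]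

/-- the conjugate of a subgroup -/
def cj (g : G) (A : Subgroup G) : Subgroup G := A.map (MulAut.conj g).toMonoidHom

theorem mem_cj {g x : G} {A : Subgroup G} : x ∈ cj g A ↔ g⁻¹ * x * g ∈ A := by
  constructor
  · rintro ⟨y, hy, rfl⟩
    have : g⁻¹ * (g * y * g⁻¹) * g = y := by group
    change g⁻¹ * (g * y * g⁻¹) * g ∈ A
    rw [this]; exact hy
  · intro h
    refine ⟨_, h, ?_⟩
    change g * (g⁻¹ * x * g) * g⁻¹ = x
    group

theorem conj_mem_cj {g x : G} {A : Subgroup G} (h : x ∈ A) : g * x * g⁻¹ ∈ cj g A := ⟨x, h, rfl⟩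

theorem cj_mul (g h : G) (A : Subgroup G) : cj (g * h) A = cj g (cj h A) := by
  ext x
  rw [mem_cj, mem_cj, mem_cj]
  have : (g * h)⁻¹ * x * (g * h) = h⁻¹ * (g⁻¹ * x * g) * h := by group
  rw [this]

theorem cj_one (A : Subgroup G) : cj 1 A = A := by
  ext x
  rw [mem_cj, inv_one, one_mul, mul_one]

theorem cj_inv_cj (g : G) (A : Subgroup G) : cj g⁻¹ (cj g A) = A := by
  rw [← cj_mul, inv_mul_cancel, cj_one]

theorem cj_cj_inv (g : G) (A : Subgroup G) : cj g (cj g⁻¹ A) = A := by
  rw [← cj_mul, mul_inv_cancel, cj_one]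

theorem cj_inj {g : G} {A B : Subgroup G} (h : cj g A = cj g B) : A = B := by
  rw [← cj_inv_cj g A, h, cj_inv_cj]

theorem cj_self {g : G} {A : Subgroup G} (h : g ∈ A) : cj g A = A := by
  ext x
  rw [mem_cj]
  constructor
  · intro hx
    have h1 := mul_mem (mul_mem h hx) (inv_mem h)
    have h2 : g * (g⁻¹ * x * g) * g⁻¹ = x := by group
    rwa [h2] at h1
  · intro hx
    exact mul_mem (mul_mem (inv_mem h) hx) h

theorem cj_of_comm {g : G} {A : Subgroup G} (h : ∀ x ∈ A, g * x = x * g) : cj g A = A := by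
  apply le_antisymm
  · rintro _ ⟨x, hx, rfl⟩
    change g * x * g⁻¹ ∈ A
    rw [h x hx, mul_inv_cancel_right]
    exact hx
  · intro x hx
    refine ⟨x, hx, ?_⟩
    change g * x * g⁻¹ = x
    rw [h x hx, mul_inv_cancel_right]

/-- the stabiliser of a family of subgroups -/
def fam {ι : Type v} (K : ι → Subgroup G) : Subgroup G where
  carrier := {g | (∀ a, ∃ b, cj g (K a) = K b) ∧ ∀ a, ∃ b, cj g⁻¹ (K a) = K b}
  mul_mem' := by
    rintro g h ⟨g1, g2⟩ ⟨h1, h2⟩
    constructor
    · intro a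
      obtain ⟨b, hb⟩ := h1 a
      obtain ⟨c, hc⟩ := g1 b
      exact ⟨c, by rw [cj_mul, hb, hc]⟩
    · intro a
      obtain ⟨b, hb⟩ := g2 a
      obtain ⟨c, hc⟩ := h2 b
      exact ⟨c, by rw [mul_inv_rev, cj_mul, hb, hc]⟩
  one_mem' := ⟨fun a => ⟨a, cj_one _⟩, fun a => ⟨a, by rw [inv_one, cj_one]⟩⟩
  inv_mem' := by
    rintro g ⟨g1, g2⟩
    exact ⟨g2, fun a => by rw [inv_inv]; exact g1 a⟩

theorem mem_fam {ι : Type v} {K : ι → Subgroup G} {g : G} :
    g ∈ fam K ↔ (∀ a, ∃ b, cj g (K a) = K b) ∧ ∀ a, ∃ b, cj g⁻¹ (K a) = K b := Iff.rfl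

/-- for a finite family one half is enough -/
theorem mem_fam_of {ι : Type v} [Finite ι] {K : ι → Subgroup G} (hinj : Function.Injective K) {g : G}
    (h : ∀ a, ∃ b, cj g (K a) = K b) : g ∈ fam K := by
  choose f hf using h
  have hfi : Function.Injective f := by
    intro a b hab
    apply hinj
    apply cj_inj (g := g)
    rw [hf, hf, hab]
  have hfs := Finite.surjective_of_injective hfi
  refine ⟨fun a => ⟨f a, hf a⟩, fun a => ?_⟩
  obtain ⟨b, rfl⟩ := hfs a
  exact ⟨b, by rw [← hf, cj_inv_cj]⟩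

/-- the action on the index set -/
noncomputable def famSmul {ι : Type v} {K : ι → Subgroup G} (g : fam K) (a : ι) : ι := (g.2.1 a).choose

theorem famSmul_spec {ι : Type v} {K : ι → Subgroup G} (g : fam K) (a : ι) :
    K (famSmul g a) = cj (g : G) (K a) := (g.2.1 a).choose_spec.symm

/-- the action on the index set -/
@[instance_reducible]
noncomputable def famAct {ι : Type v} {K : ι → Subgroup G} (hinj : Function.Injective K) : MulAction (fam K) ι where
  smul g a := famSmul g a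
  one_smul a := hinj (by
    change K (famSmul 1 a) = K a
    rw [famSmul_spec (K := K), Subgroup.coe_one, cj_one])
  mul_smul g h a := hinj (by
    change K (famSmul (g * h) a) = K (famSmul g (famSmul h a))
    rw [famSmul_spec (K := K), famSmul_spec (K := K), famSmul_spec (K := K), Subgroup.coe_mul, cj_mul])

end

section

variable {G : Type u} [Group G] [Finite G] {p : ℕ} [hp : Fact p.Prime] {r : ℕ} [hr : Fact r.Prime]

theorem card_sylow_congr {G' : Type*} [Group G'] (e : G ≃* G') : Nat.card (Sylow p G) = Nat.card (Sylow p G') := by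
  have : Finite G' := Finite.of_equiv G e.toEquiv
  refine Nat.card_congr (Equiv.ofBijective (fun P => P.mapSurjective (f := e.toMonoidHom) e.surjective)
    ⟨?_, Sylow.mapSurjective_surjective e.surjective p⟩)
  intro P R h
  have h1 : ((P : Subgroup G).map e.toMonoidHom) = ((R : Subgroup G).map e.toMonoidHom) :=
    congrArg (fun S : Sylow p G' => (S : Subgroup G')) h
  exact Sylow.ext (Subgroup.map_injective e.injective h1)

/-- **The block principle for a family of subgroups.** -/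
theorem mem_of_family {H : Subgroup G} (h : PSub p H) (hrH : ¬ r ∣ Nat.card H) {ι : Type v} (K : ι → Subgroup G)
    (hinj : Function.Injective K) (comm : ∀ i j : ι, i ≠ j → ∀ x ∈ K i, ∀ y ∈ K j, x * y = y * x)
    (hL : ¬ p ∣ (fam K).index) (a0 : ι) (htr : ∀ a, ∃ g ∈ fam K, cj g (K a) = K a0)
    (ha : ∀ (N : Type u) [Group N] [Finite N] (j : N →* G), Function.Injective j → (∀ g a, cj (j g) (K a) = K a) →
      K a0 ≤ j.range → ∀ H' : Subgroup N, PSub p H' → ¬ r ∣ Nat.card H' → ∀ x ∈ H', (∃ n : ℕ, x ^ p ^ n = 1) →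
      ∀ y ∈ K a0, j x * y = y * j x)
    (hb : r ∣ Nat.card (Sylow p (K a0)))
    {A : Subgroup G} (hA : IsPGroup r A)
    (hn : ∀ s : G, (∃ n : ℕ, s ^ p ^ n = 1) → (∀ a, ∀ y ∈ K a, s * y = y * s) → ∀ x ∈ A, s * x * s⁻¹ ∈ A)
    {Z : Subgroup G} [Z.Normal]
    (hc : ∀ s : G, (∃ n : ℕ, s ^ p ^ n = 1) → (∀ a, ∀ y ∈ K a, s * y = y * s) → (∀ x ∈ A, x * s = s * x) → s ∈ Z)
    {x : G} (hx : x ∈ H) (hxp : ∃ n : ℕ, x ^ p ^ n = 1) : x ∈ Z := by
  let act : MulAction (fam K) ι := famAct hinj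
  have hact : ∀ (g : fam K) (a : ι), K (g • a) = cj (g : G) (K a) := fun g a => famSmul_spec g a
  have hle : ∀ a, K a ≤ fam K := by
    intro a g hg
    have h1 : ∀ g ∈ K a, ∀ b, cj g (K b) = K b := by
      intro g hg b
      by_cases hab : a = b
      · subst hab; exact cj_self hg
      · exact cj_of_comm fun x hx => comm a b hab g hg x hx
    exact ⟨fun b => ⟨b, h1 g hg b⟩, fun b => ⟨b, h1 g⁻¹ (inv_mem hg) b⟩⟩
  have htriv : ∀ a b : ι, ∀ g : fam K, (g : G) ∈ K a → g • b = b := by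
    intro a b g hg
    apply hinj
    rw [hact]
    by_cases hab : a = b
    · subst hab; exact cj_self hg
    · exact cj_of_comm fun x hx => comm a b hab g hg x hx
  have hcard : ∀ g : fam K, ∀ a, Nat.card (Sylow p ((K (g • a)).subgroupOf (fam K))) =
      Nat.card (Sylow p ((K a).subgroupOf (fam K))) := by
    intro g a
    rw [hact]
    have e1 : (K a).subgroupOf (fam K) ≃* K a := subgroupOfEquivOfLe (hle a)
    have e2 : (cj (g : G) (K a)).subgroupOf (fam K) ≃* cj (g : G) (K a) :=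
      subgroupOfEquivOfLe (by rw [← hact]; exact hle _)
    have e3 : K a ≃* cj (g : G) (K a) := (K a).equivMapOfInjective _ (MulAut.conj (g : G)).injective
    exact (card_sylow_congr ((e1.trans e3).trans e2.symm)).symm
  refine mem_of_blocks h hrH hL (ι := ι) (fun a : ι => (K a).subgroupOf (fam K)) ?_ ?_ ?_ ?_ ?_ hA ?_ ?_ hx hxp
  · intro g a y hy
    rw [mem_subgroupOf] at hy ⊢
    rw [hact]
    exact conj_mem_cj hy
  · intro a b hab y hy z hz
    exact Subtype.ext (comm a b hab y hy z hz)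
  · intro a b y hy
    exact htriv a b y hy
  · intro H' hH' hrH' y hy hfix hyp a z hz
    obtain ⟨g, hg, hga⟩ := htr a
    let g' : fam K := ⟨g, hg⟩
    let H'' : Subgroup (fam K) := H'.map (MulAut.conj g').toMonoidHom
    have hc2 : Nat.card H'' = Nat.card H' := card_map_conj H' g'
    have h1 : PSub p H'' := psub_conj hH' g'
    have h2 : PSub p ((H'' ⊓ ker (fam K) ι).subgroupOf (ker (fam K) ι)) := h1.inf_normal_subgroupOf
    have h3 : ¬ r ∣ Nat.card ((H'' ⊓ ker (fam K) ι).subgroupOf (ker (fam K) ι)) := by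
      intro hd
      apply hrH'
      rw [← hc2]
      refine hd.trans ?_
      rw [Nat.card_congr (subgroupOfEquivOfLe (inf_le_right : H'' ⊓ ker (fam K) ι ≤ ker (fam K) ι)).toEquiv]
      exact card_dvd_of_le inf_le_left
    have hyk : y ∈ ker (fam K) ι := mem_ker.2 hfix
    have hyk' : g' * y * g'⁻¹ ∈ ker (fam K) ι := (inferInstance : (ker (fam K) ι).Normal).conj_mem y hyk g'
    have h4 := ha (ker (fam K) ι) ((fam K).subtype.comp (ker (fam K) ι).subtype)
      ((Subgroup.subtype_injective _).comp (Subgroup.subtype_injective _))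
      (fun t b => by
        have := mem_ker.1 t.2 b
        change cj (((t : fam K)) : G) (K b) = K b
        rw [← hact, this])
      (by
        intro t ht
        have ht' : (⟨t, hle a0 ht⟩ : fam K) ∈ ker (fam K) ι := mem_ker.2 fun b => htriv a0 b _ ht
        exact ⟨⟨_, ht'⟩, rfl⟩)
      _ h2 h3 ⟨g' * y * g'⁻¹, hyk'⟩ ⟨⟨y, hy, rfl⟩, hyk'⟩ (by
        obtain ⟨n, hn⟩ := hyp
        refine ⟨n, Subtype.ext ?_⟩
        change (g' * y * g'⁻¹) ^ p ^ n = 1
        rw [conj_pow, hn, mul_one, mul_inv_cancel])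
      (g * (z : G) * g⁻¹) (by
        rw [← hga]
        exact conj_mem_cj hz)
    apply Subtype.ext
    have h5 : g * (y : G) * g⁻¹ * (g * (z : G) * g⁻¹) = g * (z : G) * g⁻¹ * (g * (y : G) * g⁻¹) := h4
    change (y : G) * (z : G) = (z : G) * (y : G)
    have h6 : (y : G) * (z : G) = g⁻¹ * (g * (y : G) * g⁻¹ * (g * (z : G) * g⁻¹)) * g := by group
    rw [h6, h5]
    group
  · intro a
    obtain ⟨g, hg, hga⟩ := htr a
    have h1 : (⟨g, hg⟩ : fam K) • a = a0 := hinj (by rw [hact]; exact hga)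
    have h2 := hcard ⟨g, hg⟩ a
    rw [h1] at h2
    rw [← h2, card_sylow_congr (subgroupOfEquivOfLe (hle a0))]
    exact hb
  · intro s hs hcs
    obtain ⟨n, hn'⟩ := hs
    refine hn s ⟨n, ?_⟩ ?_
    · rw [← Subgroup.coe_pow, hn', Subgroup.coe_one]
    · intro a y hy
      exact congrArg Subtype.val (hcs a ⟨y, hle a hy⟩ hy)
  · intro s hs hcs
    obtain ⟨n, hn'⟩ := hs
    refine hc s ⟨n, ?_⟩ ?_
    · rw [← Subgroup.coe_pow, hn', Subgroup.coe_one]
    · intro a y hy
      exact congrArg Subtype.val (hcs a ⟨y, hle a hy⟩ hy)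

end

end Cfsg.Agent.H592.KW
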