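import Cfsg.Agent.H838.KW.Cent
import Cfsg.Prelude.Def_Classical

/-!
# S4243 (TEAM KW): the model `(k → M) × W` of an orthogonal sum of blocks (helper592)

* `OG q` : the linear isometries of the function `q : V → F`;
* `QQ qM qW v = Σ_i qM (v.1 i) + qW v.2` on `(k → M) × W`;
* `diag`, `perm` : the homomorphisms from `(k → OG qM) × OG qW` and `Perm k` to `OG (QQ qM qW)`;
* `wr D1 D0` : the subgroup `D1 wr Sym k × D0`, `card_wr`;
* `noP_of_OG` : from `OG q` to `NoP p r (POmega F Q)`.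
-/

set_option autoImplicit false
set_option linter.unusedSectionVars false

namespace Cfsg.Agent.H592.KW

open Subgroup Cfsg.Agent.H146.KW Cfsg.Agent.H838.KW

section OG

variable {F : Type*} [Field F] {V : Type*} [AddCommGroup V] [Module F V]

/-- the isometries of a function -/
def OG (q : V → F) : Subgroup (V ≃ₗ[F] V) where
  carrier := {g | ∀ v, q (g v) = q v}
  mul_mem' {a b} ha hb v := by
    change q (a (b v)) = q v
    rw [ha, hb]
  one_mem' _ := rfl
  inv_mem' {a} ha v := by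
    have h := ha (a.symm v)
    rw [a.apply_symm_apply] at h
    exact h.symm

theorem mem_OG {q : V → F} {g : V ≃ₗ[F] V} : g ∈ OG q ↔ ∀ v, q (g v) = q v := Iff.rfl

instance (q : V → F) : FunLike (OG q) V V where
  coe g := ⇑(g : V ≃ₗ[F] V)
  coe_injective _ _ h := Subtype.ext (DFunLike.coe_injective h)

instance (q : V → F) : LinearMapClass (OG q) F V V where
  map_add g u v := (g : V ≃ₗ[F] V).map_add u v
  map_smulₛₗ g c v := (g : V ≃ₗ[F] V).map_smul c v

theorem OG.coe_apply {q : V → F} (g : OG q) (v : V) : (g : V ≃ₗ[F] V) v = g v := rfl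

@[ext] theorem OG.ext {q : V → F} {g h : OG q} (H : ∀ v, g v = h v) : g = h :=
  Subtype.ext (LinearEquiv.ext H)

theorem OG.mul_apply {q : V → F} (g h : OG q) (v : V) : (g * h) v = g (h v) := rfl
theorem OG.one_apply {q : V → F} (v : V) : (1 : OG q) v = v := rfl
theorem OG.inv_apply_self {q : V → F} (g : OG q) (v : V) : g⁻¹ (g v) = v := by
  rw [← OG.mul_apply, inv_mul_cancel, OG.one_apply]
theorem OG.apply_inv_self {q : V → F} (g : OG q) (v : V) : g (g⁻¹ v) = v := by
  rw [← OG.mul_apply, mul_inv_cancel, OG.one_apply]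
theorem OG.iso {q : V → F} (g : OG q) (v : V) : q (g v) = q v := g.2 v
theorem OG.inj {q : V → F} (g : OG q) {u v : V} (h : g u = g v) : u = v := (g : V ≃ₗ[F] V).injective h
theorem OG.surj {q : V → F} (g : OG q) (v : V) : ∃ u, g u = v := ⟨g⁻¹ v, OG.apply_inv_self g v⟩

/-- an isometry from a linear equivalence -/
def OG.mk {q : V → F} (g : V ≃ₗ[F] V) (h : ∀ v, q (g v) = q v) : OG q := ⟨g, h⟩

instance [Finite V] (q : V → F) : Finite (OG q) :=
  Finite.of_injective (fun g : OG q => ((g : V ≃ₗ[F] V) : V → V)) fun _ _ hgh => OG.ext fun v => congrFun hgh v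

end OG

section Model

variable {F : Type*} [Field F] (k : Type) [Fintype k] [DecidableEq k] {M W : Type*} [AddCommGroup M] [Module F M]
  [AddCommGroup W] [Module F W]

/-- the form -/
def QQ (qM : M → F) (qW : W → F) (v : (k → M) × W) : F := ∑ i, qM (v.1 i) + qW v.2

variable {qM : M → F} {qW : W → F}

/-- the block diagonal isometries -/
def diag : (k → OG qM) × OG qW →* OG (QQ k qM qW) where
  toFun x := ⟨LinearEquiv.prodCongr (LinearEquiv.piCongrRight fun i => (x.1 i : M ≃ₗ[F] M)) (x.2 : W ≃ₗ[F] W), by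
    intro v
    change ∑ i, qM (x.1 i (v.1 i)) + qW (x.2 v.2) = ∑ i, qM (v.1 i) + qW v.2
    rw [OG.iso x.2]
    congr 1
    exact Finset.sum_congr rfl fun i _ => OG.iso (x.1 i) _⟩
  map_one' := OG.ext fun _ => rfl
  map_mul' _ _ := OG.ext fun _ => rfl

theorem diag_fst (x : (k → OG qM) × OG qW) (v : (k → M) × W) (i : k) : (diag k x v).1 i = x.1 i (v.1 i) := rfl
theorem diag_snd (x : (k → OG qM) × OG qW) (v : (k → M) × W) : (diag k x v).2 = x.2 v.2 := rfl

/-- the permutations of the blocks -/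
def perm : Equiv.Perm k →* OG (QQ k qM qW) where
  toFun σ := ⟨
    { toFun := fun v => (fun i => v.1 (σ⁻¹ i), v.2)
      invFun := fun v => (fun i => v.1 (σ i), v.2)
      map_add' := fun _ _ => rfl
      map_smul' := fun _ _ => rfl
      left_inv := fun v => Prod.ext (funext fun i => congrArg v.1 (Equiv.symm_apply_apply σ i)) rfl
      right_inv := fun v => Prod.ext (funext fun i => congrArg v.1 (Equiv.apply_symm_apply σ i)) rfl }, by
    intro v
    change ∑ i, qM (v.1 (σ⁻¹ i)) + qW v.2 = ∑ i, qM (v.1 i) + qW v.2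
    rw [Equiv.sum_comp σ⁻¹ fun i => qM (v.1 i)]⟩
  map_one' := OG.ext fun _ => rfl
  map_mul' _ _ := OG.ext fun _ => rfl

theorem perm_fst (σ : Equiv.Perm k) (v : (k → M) × W) (i : k) :
    ((perm k σ : OG (QQ k qM qW)) v).1 i = v.1 (σ⁻¹ i) := rfl
theorem perm_snd (σ : Equiv.Perm k) (v : (k → M) × W) : ((perm k σ : OG (QQ k qM qW)) v).2 = v.2 := rfl

theorem perm_mul_diag (σ : Equiv.Perm k) (T : k → OG qM) (S : OG qW) :
    (perm k σ * diag k (T, S) : OG (QQ k qM qW)) = diag k (fun i => T (σ⁻¹ i), S) * perm k σ := OG.ext fun _ => rfl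

theorem diag_inj {x y : (k → OG qM) × OG qW} (h : diag k x = diag k y) : x = y := by
  have h1 : ∀ v, diag k x v = diag k y v := fun v => by rw [h]
  refine Prod.ext (funext fun i => OG.ext fun m => ?_) (OG.ext fun w => ?_)
  · have h2 := congrFun (congrArg Prod.fst (h1 (fun _ => m, 0))) i
    exact h2
  · exact congrArg Prod.snd (h1 (0, w))

/-- the wreath product `D1 wr Sym k × D0` -/
def wr (D1 : Subgroup (OG qM)) (D0 : Subgroup (OG qW)) : Subgroup (OG (QQ k qM qW)) where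
  carrier := {g | ∃ (T : k → OG qM) (S : OG qW) (σ : Equiv.Perm k), (∀ i, T i ∈ D1) ∧ S ∈ D0 ∧
    g = diag k (T, S) * perm k σ}
  mul_mem' := by
    rintro _ _ ⟨T, S, σ, hT, hS, rfl⟩ ⟨T', S', σ', hT', hS', rfl⟩
    refine ⟨fun i => T i * T' (σ⁻¹ i), S * S', σ * σ', fun i => mul_mem (hT i) (hT' _), mul_mem hS hS', ?_⟩
    exact OG.ext fun _ => rfl
  one_mem' := ⟨1, 1, 1, fun _ => one_mem _, one_mem _, rfl⟩
  inv_mem' := by
    rintro _ ⟨T, S, σ, hT, hS, rfl⟩
    refine ⟨fun i => (T (σ i))⁻¹, S⁻¹, σ⁻¹, fun i => inv_mem (hT _), inv_mem hS, ?_⟩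
    exact OG.ext fun _ => rfl

theorem diag_mem_wr {D1 : Subgroup (OG qM)} {D0 : Subgroup (OG qW)} {T : k → OG qM} {S : OG qW} (hT : ∀ i, T i ∈ D1)
    (hS : S ∈ D0) : diag k (T, S) ∈ wr k D1 D0 :=
  ⟨T, S, 1, hT, hS, by rw [map_one, mul_one]⟩

theorem perm_mem_wr {D1 : Subgroup (OG qM)} {D0 : Subgroup (OG qW)} (σ : Equiv.Perm k) : perm k σ ∈ wr k D1 D0 :=
  ⟨1, 1, σ, fun _ => one_mem _, one_mem _, by
    have h : diag k ((1 : k → OG qM), (1 : OG qW)) = 1 := map_one (diag k)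
    rw [h, one_mul]⟩

theorem wr_inj [Nontrivial M] {T T' : k → OG qM} {S S' : OG qW} {σ σ' : Equiv.Perm k}
    (h : diag k (T, S) * perm k σ = diag k (T', S') * perm k σ') : T = T' ∧ S = S' ∧ σ = σ' := by
  obtain ⟨m, hm⟩ := exists_ne (0 : M)
  have h1 : ∀ (v : (k → M) × W) (i : k), T i (v.1 (σ⁻¹ i)) = T' i (v.1 (σ'⁻¹ i)) := fun v i => by
    have h2 : (diag k (T, S) * perm k σ : OG (QQ k qM qW)) v = (diag k (T', S') * perm k σ' : OG (QQ k qM qW)) v := by
      rw [h]
    exact congrFun (congrArg Prod.fst h2) i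
  have h2 : ∀ i, σ⁻¹ i = σ'⁻¹ i := by
    intro i
    by_contra hne
    have h3 := h1 (Pi.single (σ⁻¹ i) m, 0) i
    rw [show ((Pi.single (σ⁻¹ i) m, (0 : W)) : (k → M) × W).1 (σ⁻¹ i) = m from Pi.single_eq_same _ _,
      show ((Pi.single (σ⁻¹ i) m, (0 : W)) : (k → M) × W).1 (σ'⁻¹ i) = 0 from Pi.single_eq_of_ne (Ne.symm hne) _,
      map_zero] at h3
    apply hm
    apply OG.inj (T i)
    rw [h3, map_zero]
  have h3 : σ = σ' := inv_injective (Equiv.ext h2)
  subst h3
  have h4 := diag_inj k (mul_right_cancel h)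
  exact ⟨congrArg Prod.fst h4, congrArg Prod.snd h4, rfl⟩

theorem card_wr [Nontrivial M] (D1 : Subgroup (OG qM)) (D0 : Subgroup (OG qW)) :
    Nat.card (wr k D1 D0) = Nat.card D1 ^ Fintype.card k * Nat.card D0 * (Fintype.card k).factorial := by
  have e : ((k → D1) × D0) × Equiv.Perm k ≃ wr k D1 D0 := by
    refine Equiv.ofBijective (fun x => ⟨diag k (fun i => (x.1.1 i : OG qM), (x.1.2 : OG qW)) * perm k x.2,
      ⟨_, _, _, fun i => (x.1.1 i).2, x.1.2.2, rfl⟩⟩) ⟨?_, ?_⟩
    · rintro ⟨⟨T, S⟩, σ⟩ ⟨⟨T', S'⟩, σ'⟩ h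
      have h1 := wr_inj k (congrArg Subtype.val h)
      obtain ⟨h2, h3, h4⟩ := h1
      refine Prod.ext (Prod.ext (funext fun i => Subtype.ext (congrFun h2 i)) (Subtype.ext h3)) h4
    · rintro ⟨g, T, S, σ, hT, hS, rfl⟩
      exact ⟨((fun i => ⟨T i, hT i⟩, ⟨S, hS⟩), σ), rfl⟩
  rw [← Nat.card_congr e, Nat.card_prod, Nat.card_prod, Nat.card_fun, Nat.card_eq_fintype_card (α := k), Nat.card_perm,
    Nat.card_eq_fintype_card (α := k)]

end Model

section Transfer

open Matrix Cfsg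

variable {F : Type*} [Field F] {ι : Type} [Fintype ι] [DecidableEq ι] {V : Type*} [AddCommGroup V] [Module F V]

/-- the linear equivalence of an invertible matrix -/
def lin : GL ι F →* ((ι → F) ≃ₗ[F] (ι → F)) where
  toFun g :=
    { toFun := fun v => (g : Matrix ι ι F) *ᵥ v
      invFun := fun v => ((g⁻¹ : GL ι F) : Matrix ι ι F) *ᵥ v
      map_add' := fun _ _ => Matrix.mulVec_add _ _ _
      map_smul' := fun _ _ => Matrix.mulVec_smul _ _ _
      left_inv := fun v => by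
        change ((g⁻¹ : GL ι F) : Matrix ι ι F) *ᵥ ((g : Matrix ι ι F) *ᵥ v) = v
        rw [Matrix.mulVec_mulVec, ← Units.val_mul, inv_mul_cancel, Units.val_one, Matrix.one_mulVec]
      right_inv := fun v => by
        change (g : Matrix ι ι F) *ᵥ (((g⁻¹ : GL ι F) : Matrix ι ι F) *ᵥ v) = v
        rw [Matrix.mulVec_mulVec, ← Units.val_mul, mul_inv_cancel, Units.val_one, Matrix.one_mulVec] }
  map_one' := LinearEquiv.ext fun v => Matrix.one_mulVec v
  map_mul' g h := LinearEquiv.ext fun v => by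
    change ((g * h : GL ι F) : Matrix ι ι F) *ᵥ v = (g : Matrix ι ι F) *ᵥ ((h : Matrix ι ι F) *ᵥ v)
    rw [Matrix.mulVec_mulVec, ← Units.val_mul]

theorem lin_apply (g : GL ι F) (v : ι → F) : lin g v = (g : Matrix ι ι F) *ᵥ v := rfl

variable {Q : (ι → F) → F} {q : V → F}

/-- the isometry group of `Q` maps to the isometry group of `q` -/
def toOG (e : (ι → F) ≃ₗ[F] V) (hq : ∀ v, Q v = q (e v)) : isometryGroup F Q →* OG q where
  toFun g := ⟨(e.symm.trans (lin (g : GL ι F))).trans e, by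
    intro v
    change q (e ((g : GL ι F).val *ᵥ (e.symm v))) = q v
    have h1 : Q ((g : GL ι F).val *ᵥ (e.symm v)) = Q (e.symm v) := g.2 _ 0
    rw [← hq, h1, hq, e.apply_symm_apply]⟩
  map_one' := OG.ext fun v => by
    change e (((1 : GL ι F) : Matrix ι ι F) *ᵥ (e.symm v)) = v
    rw [Units.val_one, Matrix.one_mulVec, e.apply_symm_apply]
  map_mul' g h := OG.ext fun v => by
    change e (((g : GL ι F) * (h : GL ι F)).val *ᵥ (e.symm v)) =
      e ((g : GL ι F).val *ᵥ (e.symm (e ((h : GL ι F).val *ᵥ (e.symm v)))))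
    rw [e.symm_apply_apply, Matrix.mulVec_mulVec, ← Units.val_mul]

theorem toOG_apply (e : (ι → F) ≃ₗ[F] V) (hq : ∀ v, Q v = q (e v)) (g : isometryGroup F Q) (v : ι → F) :
    toOG e hq g (e v) = e ((g : GL ι F).val *ᵥ v) := by
  change e ((g : GL ι F).val *ᵥ (e.symm (e v))) = _
  rw [e.symm_apply_apply]

theorem toOG_injective (e : (ι → F) ≃ₗ[F] V) (hq : ∀ v, Q v = q (e v)) : Function.Injective (toOG e hq) := by
  intro g h hgh
  apply Subtype.ext
  apply Units.ext
  apply Matrix.ext_of_mulVec_single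
  intro i
  apply e.injective
  rw [← toOG_apply e hq, ← toOG_apply e hq, hgh]

theorem toOG_surjective (e : (ι → F) ≃ₗ[F] V) (hq : ∀ v, Q v = q (e v)) : Function.Surjective (toOG e hq) := by
  intro g
  let f : (ι → F) ≃ₗ[F] (ι → F) := (e.trans (g : V ≃ₗ[F] V)).trans e.symm
  let P : GL ι F :=
    { val := LinearMap.toMatrix' (f : (ι → F) →ₗ[F] (ι → F))
      inv := LinearMap.toMatrix' (f.symm : (ι → F) →ₗ[F] (ι → F))
      val_inv := by
        rw [← LinearMap.toMatrix'_comp]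
        simp
      inv_val := by
        rw [← LinearMap.toMatrix'_comp]
        simp }
  have hP : ∀ v, P.val *ᵥ v = f v := fun v => by
    change LinearMap.toMatrix' (f : (ι → F) →ₗ[F] (ι → F)) *ᵥ v = _
    rw [← Matrix.toLin'_apply, Matrix.toLin'_toMatrix']
    rfl
  have hPQ : P ∈ isometryGroup F Q := by
    intro v _
    change Q (P.val *ᵥ v) = Q v
    rw [hP, hq, hq]
    change q (e (e.symm (g (e v)))) = q (e v)
    rw [e.apply_symm_apply, OG.iso g]
  refine ⟨⟨P, hPQ⟩, OG.ext fun v => ?_⟩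
  obtain ⟨v, rfl⟩ := e.surjective v
  rw [toOG_apply]
  change e (P.val *ᵥ v) = _
  rw [hP]
  change e (e.symm (g (e v))) = _
  rw [e.apply_symm_apply]

/-- the isomorphism -/
noncomputable def eOG (e : (ι → F) ≃ₗ[F] V) (hq : ∀ v, Q v = q (e v)) : isometryGroup F Q ≃* OG q :=
  MulEquiv.ofBijective (toOG e hq) ⟨toOG_injective e hq, toOG_surjective e hq⟩

theorem card_OG (e : (ι → F) ≃ₗ[F] V) (hq : ∀ v, Q v = q (e v)) : Nat.card (OG q) = Nat.card (isometryGroup F Q) :=
  (Nat.card_congr (eOG e hq).toEquiv).symm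

theorem eOG_apply (e : (ι → F) ≃ₗ[F] V) (hq : ∀ v, Q v = q (e v)) (g : isometryGroup F Q) (v : ι → F) :
    eOG e hq g (e v) = e ((g : GL ι F).val *ᵥ v) := toOG_apply e hq g v

variable {p r : ℕ} [hp : Fact p.Prime] [hr : Fact r.Prime]

/-- **Transfer**: from the linear isometries of the model to `POmega`. -/
theorem noP_of_OG [Finite F] (e : (ι → F) ≃ₗ[F] V) (hq : ∀ v, Q v = q (e v))
    (hZ : ¬ r ∣ Nat.card (Subgroup.center (Omega F Q)))
    (h : ∀ H : Subgroup (OG q), PSub p H → ¬ r ∣ Nat.card H → ∀ x ∈ H, (∃ n : ℕ, x ^ p ^ n = 1) →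
      ∃ c : F, ∀ v, x v = c • v) : NoP p r (POmega F Q) := by
  have : Finite (isometryGroup F Q) := Subtype.finite
  have : Finite (OG q) := Finite.of_equiv _ (eOG e hq).toEquiv
  refine noP_of_central hZ ?_
  intro H hH hrH x hx hxp
  have hle : H.map (Omega F Q).subtype ≤ Omega F Q := by
    rintro _ ⟨y, -, rfl⟩
    exact y.2
  have h1 : PSub p (H.map (Omega F Q).subtype) := by
    refine PSub.of_subgroupOf_normal hle ?_
    have h2 : (H.map (Omega F Q).subtype).subgroupOf (Omega F Q) = H := by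
      ext y
      rw [mem_subgroupOf]
      constructor
      · rintro ⟨z, hz, hzy⟩
        have : z = y := Subtype.ext hzy
        exact this ▸ hz
      · intro hy
        exact ⟨y, hy, rfl⟩
    rw [h2]
    exact hH
  have h3 := h1.map_equiv (eOG e hq)
  have c1 : Nat.card (H.map (Omega F Q).subtype) = Nat.card H :=
    (Nat.card_congr (H.equivMapOfInjective _ (Subgroup.subtype_injective _)).toEquiv).symm
  have c2 : Nat.card ((H.map (Omega F Q).subtype).map (eOG e hq).toMonoidHom) = Nat.card H := by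
    rw [← c1]
    exact (Nat.card_congr ((H.map (Omega F Q).subtype).equivMapOfInjective _ (eOG e hq).injective).toEquiv).symm
  obtain ⟨n, hn⟩ := hxp
  obtain ⟨c, hc⟩ := h _ h3 (by rwa [c2]) (eOG e hq (x : isometryGroup F Q)) ⟨_, ⟨x, hx, rfl⟩, rfl⟩ ⟨n, by
    rw [← map_pow, ← Subgroup.coe_pow, hn, Subgroup.coe_one, map_one]⟩
  rw [Subgroup.mem_center_iff]
  intro g
  apply Subtype.ext
  apply (eOG e hq).injective
  rw [Subgroup.coe_mul, Subgroup.coe_mul, map_mul, map_mul]
  refine OG.ext fun v => ?_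
  rw [OG.mul_apply, OG.mul_apply, hc, hc, map_smul]

end Transfer

end Cfsg.Agent.H592.KW
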