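import Cfsg.Agent.H592.KW.Model

/-!
# S4243 (TEAM KW): Siegel maps (helper592)

* `QB q B` : `q` is a quadratic form with polar form `B`;
* `sg` : the isometry `v ↦ v + B(v,w) u - B(v,u) w - q(u) B(v,w) w` for `w` singular, `u ⊥ w`;
* `sgA w` : the `r`-group of the `sg w u`.
-/

set_option autoImplicit false
set_option linter.unusedSectionVars false

namespace Cfsg.Agent.H592.KW

open Subgroup

section

variable {F : Type*} [Field F] {V : Type*} [AddCommGroup V] [Module F V]

/-- `q` is a quadratic form with polar form `B` -/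
structure QB (q : V → F) (B : V → V → F) : Prop where
  polar : ∀ x y, q (x + y) = q x + q y + B x y
  smul : ∀ (c : F) x, q (c • x) = c ^ 2 * q x
  add_left : ∀ x y z, B (x + y) z = B x z + B y z
  smul_left : ∀ (c : F) x y, B (c • x) y = c * B x y
  symm : ∀ x y, B x y = B y x

namespace QB

variable {q : V → F} {B : V → V → F} (h : QB q B)
include h

theorem add_right (x y z : V) : B x (y + z) = B x y + B x z := by
  rw [h.symm, h.add_left, h.symm y, h.symm z]

theorem smul_right (c : F) (x y : V) : B x (c • y) = c * B x y := by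
  rw [h.symm, h.smul_left, h.symm y]

theorem zero : q 0 = 0 := by
  have := h.smul 0 0
  rwa [zero_smul, zero_pow two_ne_zero, zero_mul] at this

theorem zero_left (y : V) : B 0 y = 0 := by
  have := h.smul_left 0 0 y
  rwa [zero_smul, zero_mul] at this

theorem zero_right (y : V) : B y 0 = 0 := by rw [h.symm, h.zero_left]

theorem self (x : V) : B x x = 2 * q x := by
  have h1 := h.polar x x
  have h2 := h.smul 2 x
  rw [two_smul] at h2
  rw [h2] at h1
  linear_combination -h1

theorem neg_left (x y : V) : B (-x) y = - B x y := by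
  rw [← neg_one_smul F x, h.smul_left, neg_one_mul]

theorem neg_right (x y : V) : B x (-y) = - B x y := by
  rw [h.symm, h.neg_left, h.symm y]

theorem sub_left (x y z : V) : B (x - y) z = B x z - B y z := by
  rw [sub_eq_add_neg, h.add_left, h.neg_left, sub_eq_add_neg]

theorem sub_right (x y z : V) : B x (y - z) = B x y - B x z := by
  rw [h.symm, h.sub_left, h.symm y, h.symm z]

theorem q_sub (x y : V) : q (x - y) = q x + q y - B x y := by
  have h1 := h.smul (-1) y
  rw [neg_one_smul, neg_one_sq, one_mul] at h1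
  rw [sub_eq_add_neg, h.polar, h1, h.neg_right, sub_eq_add_neg]

theorem map_B (g : OG q) (x y : V) : B (g x) (g y) = B x y := by
  have h1 := h.polar (g x) (g y)
  rw [← map_add, OG.iso g, OG.iso g, OG.iso g, h.polar] at h1
  linear_combination -h1

end QB

/-- the formula -/
def sgf (q : V → F) (B : V → V → F) (w u v : V) : V := v + B v w • u - B v u • w - (q u * B v w) • w

theorem sgf_comp {q : V → F} {B : V → V → F} (h : QB q B) {w u u' : V} (hw : q w = 0) (hu : B u w = 0) (hu' : B u' w = 0)
    (v : V) : sgf q B w u (sgf q B w u' v) = sgf q B w (u + u') v := by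
  have hww : B w w = 0 := by rw [h.self, hw, mul_zero]
  have hwu : B w u = 0 := by rw [h.symm, hu]
  have h1 : B (sgf q B w u' v) w = B v w := by
    rw [sgf, h.sub_left, h.sub_left, h.add_left, h.smul_left, h.smul_left, h.smul_left, hu', hww]
    ring
  have h2 : B (sgf q B w u' v) u = B v u + B v w * B u' u := by
    rw [sgf, h.sub_left, h.sub_left, h.add_left, h.smul_left, h.smul_left, h.smul_left, hwu]
    ring
  rw [sgf, h1, h2, sgf, sgf, h.polar, h.add_right, h.symm u u']
  module

theorem sgf_zero {q : V → F} {B : V → V → F} (h : QB q B) (w v : V) : sgf q B w 0 v = v := by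
  rw [sgf, h.zero_right, h.zero]
  simp

theorem q_sgf {q : V → F} {B : V → V → F} (h : QB q B) {w u : V} (hw : q w = 0) (hu : B u w = 0) (v : V) :
    q (sgf q B w u v) = q v := by
  have hww : B w w = 0 := by rw [h.self, hw, mul_zero]
  have hwu : B w u = 0 := by rw [h.symm, hu]
  have e : sgf q B w u v = v + (B v w • u - (B v u + q u * B v w) • w) := by
    rw [sgf]; module
  rw [e, h.polar, h.q_sub, h.smul, h.smul, h.sub_right, h.smul_right, h.smul_right, h.smul_left, h.smul_right, hu, hw]
  ring

/-- the Siegel map -/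
def sg {q : V → F} {B : V → V → F} (h : QB q B) {w : V} (hw : q w = 0) (u : V) (hu : B u w = 0) : OG q :=
  ⟨{ toFun := sgf q B w u
     invFun := sgf q B w (-u)
     map_add' := fun x y => by
      rw [sgf, sgf, sgf, h.add_left, h.add_left]
      module
     map_smul' := fun c x => by
      rw [RingHom.id_apply, sgf, sgf, h.smul_left, h.smul_left]
      module
     left_inv := fun v => by
      rw [sgf_comp h hw (by rw [h.neg_left, hu, neg_zero]) hu, neg_add_cancel, sgf_zero h]
     right_inv := fun v => by
      rw [sgf_comp h hw hu (by rw [h.neg_left, hu, neg_zero]), add_neg_cancel, sgf_zero h] },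
    fun v => q_sgf h hw hu v⟩

theorem sg_apply {q : V → F} {B : V → V → F} (h : QB q B) {w : V} (hw : q w = 0) (u : V) (hu : B u w = 0) (v : V) :
    sg h hw u hu v = v + B v w • u - B v u • w - (q u * B v w) • w := rfl

theorem sg_mul {q : V → F} {B : V → V → F} (h : QB q B) {w : V} (hw : q w = 0) (u u' : V) (hu : B u w = 0)
    (hu' : B u' w = 0) : sg h hw u hu * sg h hw u' hu' = sg h hw (u + u') (by rw [h.add_left, hu, hu', add_zero]) :=
  OG.ext fun v => sgf_comp h hw hu hu' v

/-- the orthogonal space of `w` -/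
def perp {q : V → F} {B : V → V → F} (h : QB q B) (w : V) : AddSubgroup V where
  carrier := {u | B u w = 0}
  add_mem' {a b} ha hb := by
    change B (a + b) w = 0
    rw [h.add_left, ha, hb, add_zero]
  zero_mem' := h.zero_left w
  neg_mem' {a} ha := by
    change B (-a) w = 0
    rw [h.neg_left, ha, neg_zero]

/-- the group of the Siegel maps of `w` -/
def sgA {q : V → F} {B : V → V → F} (h : QB q B) {w : V} (hw : q w = 0) : Subgroup (OG q) where
  carrier := {g | ∃ (u : V) (hu : B u w = 0), g = sg h hw u hu}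
  mul_mem' := by
    rintro _ _ ⟨u, hu, rfl⟩ ⟨u', hu', rfl⟩
    exact ⟨_, _, sg_mul h hw u u' hu hu'⟩
  one_mem' := ⟨0, h.zero_left w, OG.ext fun v => (sgf_zero h w v).symm⟩
  inv_mem' := by
    rintro _ ⟨u, hu, rfl⟩
    have hu' : B (-u) w = 0 := by rw [h.neg_left, hu, neg_zero]
    refine ⟨-u, hu', ?_⟩
    rw [inv_eq_iff_mul_eq_one, sg_mul]
    refine OG.ext fun v => ?_
    have : sgf q B w (u + -u) v = v := by rw [add_neg_cancel, sgf_zero h]
    exact this

theorem sg_mem {q : V → F} {B : V → V → F} (h : QB q B) {w : V} (hw : q w = 0) (u : V) (hu : B u w = 0) :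
    sg h hw u hu ∈ sgA h hw := ⟨u, hu, rfl⟩

theorem sg_pow {q : V → F} {B : V → V → F} (h : QB q B) {w : V} (hw : q w = 0) (u : V) (hu : B u w = 0) (n : ℕ) :
    ∀ v, (sg h hw u hu ^ n : OG q) v = sgf q B w (n • u) v := by
  induction n with
  | zero =>
    intro v
    rw [pow_zero, zero_smul, sgf_zero h]; rfl
  | succ n ih =>
    intro v
    have hn : B (n • u) w = 0 := by
      rw [← Nat.cast_smul_eq_nsmul F, h.smul_left, hu, mul_zero]
    rw [pow_succ', OG.mul_apply, ih]
    change sgf q B w u _ = _
    rw [sgf_comp h hw hu hn, succ_nsmul']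

theorem isPGroup_sgA {q : V → F} {B : V → V → F} (h : QB q B) {w : V} (hw : q w = 0) (r : ℕ) [CharP F r] :
    IsPGroup r (sgA h hw) := by
  rintro ⟨_, u, hu, rfl⟩
  refine ⟨1, Subtype.ext (OG.ext fun v => ?_)⟩
  rw [pow_one]
  change (sg h hw u hu ^ r : OG q) v = v
  rw [sg_pow, ← Nat.cast_smul_eq_nsmul F, CharP.cast_eq_zero, zero_smul, sgf_zero h]

/-- the conjugates of the Siegel maps -/
theorem conj_sg {q : V → F} {B : V → V → F} (h : QB q B) {w : V} (hw : q w = 0) (u : V) (hu : B u w = 0) (g : OG q) {c : F}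
    (hg : g w = c • w) (v : V) : g (sg h hw u hu v) = sgf q B w (c • g u) (g v) := by
  have h1 : B v w = B (g v) (g w) := (h.map_B g v w).symm
  have h2 : B v u = B (g v) (g u) := (h.map_B g v u).symm
  rw [sg_apply, map_sub, map_sub, map_add, map_smul, map_smul, map_smul, h1, h2, hg, sgf, h.smul, OG.iso g, h.smul_right,
    h.smul_right]
  module

theorem conj_mem_sgA {q : V → F} {B : V → V → F} (h : QB q B) {w : V} (hw : q w = 0) (g : OG q) {c : F}
    (hg : g w = c • w) {a : OG q} (ha : a ∈ sgA h hw) : g * a * g⁻¹ ∈ sgA h hw := by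
  obtain ⟨u, hu, rfl⟩ := ha
  have h1 : B (c • g u) w = 0 := by
    rw [h.smul_left, ← h.smul_right, ← hg, h.map_B, hu]
  refine ⟨c • g u, h1, OG.ext fun v => ?_⟩
  obtain ⟨v, rfl⟩ := OG.surj g v
  rw [OG.mul_apply, OG.mul_apply, OG.inv_apply_self, conj_sg h hw u hu g hg]
  rfl

/-- what commuting with a Siegel map means -/
theorem comm_sg {q : V → F} {B : V → V → F} (h : QB q B) {w : V} (hw : q w = 0) (u : V) (hu : B u w = 0) {g : OG q} {c : F}
    (hg : g w = c • w) (hc : sg h hw u hu * g = g * sg h hw u hu) {v : V} (hv : B v w = 1) :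
    ∃ d : F, c • g u - u = d • w := by
  have h1 : ∀ x, sgf q B w (c • g u) x = sgf q B w u x := by
    intro x
    obtain ⟨x, rfl⟩ := OG.surj g x
    rw [← conj_sg h hw u hu g hg]
    have h2 : (sg h hw u hu * g : OG q) x = (g * sg h hw u hu : OG q) x := by rw [hc]
    exact h2.symm
  have h2 := h1 v
  rw [sgf, sgf, hv] at h2
  refine ⟨B v (c • g u) + q (c • g u) - (B v u + q u), ?_⟩
  have h3 : c • g u - u = (v + (1 : F) • c • g u - B v (c • g u) • w - (q (c • g u) * 1) • w) +
      (B v (c • g u) + q (c • g u)) • w - v - u := by module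
  rw [h3, h2]
  module

end

section sums

variable {F : Type*} [Field F]

theorem QB.prod {V W : Type*} [AddCommGroup V] [Module F V] [AddCommGroup W] [Module F W] {q : V → F} {B : V → V → F}
    {q' : W → F} {B' : W → W → F} (h : QB q B) (h' : QB q' B') :
    QB (fun v : V × W => q v.1 + q' v.2) (fun u v => B u.1 v.1 + B' u.2 v.2) where
  polar x y := by
    change q (x.1 + y.1) + q' (x.2 + y.2) = _
    rw [h.polar, h'.polar]; ring
  smul c x := by
    change q (c • x.1) + q' (c • x.2) = _
    rw [h.smul, h'.smul]; ring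
  add_left x y z := by
    change B (x.1 + y.1) z.1 + B' (x.2 + y.2) z.2 = _
    rw [h.add_left, h'.add_left]; ring
  smul_left c x y := by
    change B (c • x.1) y.1 + B' (c • x.2) y.2 = _
    rw [h.smul_left, h'.smul_left]; ring
  symm x y := by rw [h.symm, h'.symm]

theorem QB.pi {k : Type*} [Fintype k] {V : Type*} [AddCommGroup V] [Module F V] {q : V → F} {B : V → V → F} (h : QB q B) :
    QB (fun v : k → V => ∑ i, q (v i)) (fun u v => ∑ i, B (u i) (v i)) where
  polar x y := by
    change ∑ i, q (x i + y i) = _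
    simp only [h.polar, Finset.sum_add_distrib]
  smul c x := by
    change ∑ i, q (c • x i) = _
    simp only [h.smul, Finset.mul_sum]
  add_left x y z := by
    change ∑ i, B (x i + y i) (z i) = _
    simp only [h.add_left, Finset.sum_add_distrib]
  smul_left c x y := by
    change ∑ i, B (c • x i) (y i) = _
    simp only [h.smul_left, Finset.mul_sum]
  symm x y := Finset.sum_congr rfl fun i _ => h.symm _ _

/-- the polar form of `QQ` -/
def BB (k : Type) [Fintype k] {M W : Type*} (BM : M → M → F) (BW : W → W → F) (u v : (k → M) × W) : F :=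
  ∑ i, BM (u.1 i) (v.1 i) + BW u.2 v.2

theorem QB.QQ {k : Type} [Fintype k] [DecidableEq k] {M W : Type*} [AddCommGroup M] [Module F M]
    [AddCommGroup W] [Module F W] {qM : M → F} {qW : W → F} {BM : M → M → F} {BW : W → W → F} (hM : QB qM BM)
    (hW : QB qW BW) : QB (QQ k qM qW) (BB k BM BW) := hM.pi.prod hW

end sums

end Cfsg.Agent.H592.KW
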